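import Cfsg.Agent.H72.ZasDefs
import Cfsg.Prelude.Def_OddOrderLocal

/-!
# S4118 (π-separable groups with a TI Hall subgroup of its normalizer): exact statements of the
pieces (helper72).  Uses `ZasAx` from `Cfsg.Agent.H72.ZasDefs`.
-/

set_option autoImplicit false

namespace Cfsg.Agent.H72.Zas

universe u

/-- Q1: a TI subgroup which is a Hall subgroup of its normalizer is a Hall subgroup. -/
def StQ1 : Prop :=
  ∀ (G : Type u) [Group G] [Finite G] (H : Subgroup G), Cfsg.IsTISubset (H : Set G) →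
    (Nat.card H).Coprime (H.subgroupOf (Subgroup.normalizer (H : Set G))).index →
    (Nat.card H).Coprime H.index

/-- Q2: the join of all normal subgroups of order prime to `m` is normal of order prime to `m`. -/
def StQ2 : Prop :=
  ∀ (G : Type u) [Group G] [Finite G] (m : ℕ) (O : Subgroup G),
    O = sSup {K : Subgroup G | K.Normal ∧ (Nat.card K).Coprime m} →
    O.Normal ∧ (Nat.card O).Coprime m

/-- Q3: the first two assertions of S4118. -/
def StQ3 : Prop :=
  ∀ (G : Type u) [Group G] [Finite G] (H : Subgroup G), Cfsg.IsTISubset (H : Set G) →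
    ¬ H.Normal →
    (Nat.card H).Coprime (H.subgroupOf (Subgroup.normalizer (H : Set G))).index →
    (∃ (n : ℕ) (M : Fin (n + 1) → Subgroup G), M 0 = ⊥ ∧ M (Fin.last n) = ⊤ ∧ Monotone M ∧
      (∀ i, (M i).Normal) ∧
      ∀ i : Fin n, (∀ q : ℕ, q.Prime → q ∣ (M i.castSucc).relIndex (M i.succ) → q ∣ Nat.card H) ∨
        ((M i.castSucc).relIndex (M i.succ)).Coprime (Nat.card H)) →
    ∀ O : Subgroup G, O = sSup {K : Subgroup G | K.Normal ∧ (Nat.card K).Coprime (Nat.card H)} →
    O ⊔ Subgroup.normalizer (H : Set G) = ⊤ ∧ (O ⊔ H).Normal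

/-- Q6: a TI subgroup acting non-trivially on a solvable normal subgroup of coprime order acts
faithfully and fixed-point-freely on some finite abelian group. -/
def StQ6 : Prop :=
  ∀ (G : Type u) [Group G] [Finite G] (H O : Subgroup G), Cfsg.IsTISubset (H : Set G) →
    O.Normal → (Nat.card O).Coprime (Nat.card H) → Group.IsSolvable O →
    (¬ ∀ x ∈ O, ∀ h ∈ H, x * h = h * x) →
    ∃ (U : Type u) (_ : CommGroup U) (_ : Finite U) (φ : H →* MulAut U), Function.Injective φ ∧
      ∀ h : H, h ≠ 1 → ∀ u : U, φ h u = u → u = 1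

/-- Q7: a fixed-point-free automorphism group without `SL(2,5)` subgroups is solvable. -/
def StQ7 : Prop :=
  ∀ (H : Type u) [Group H] [Finite H] (U : Type u) [CommGroup U] [Finite U] (φ : H →* MulAut U),
    Function.Injective φ → (∀ h : H, h ≠ 1 → ∀ u : U, φ h u = u → u = 1) →
    (∀ K : Subgroup H, ¬ Nonempty (K ≃* Matrix.SpecialLinearGroup (Fin 2) (ZMod 5))) →
    Group.IsSolvable H ∧ ZasAx H

/-- Q8: a perfect group normalizing a cyclic subgroup, or of odd order normalizing a generalized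
quaternion subgroup, centralizes it. -/
def StQ8 : Prop :=
  ∀ (G : Type u) [Group G] [Finite G] (A P : Subgroup G), (∀ a ∈ A, ∀ x ∈ P, a * x * a⁻¹ ∈ P) →
    commutator A = ⊤ →
    (IsCyclic P ∨ (Odd (Nat.card A) ∧ ∃ n : ℕ, 1 ≤ n ∧ Nonempty (P ≃* QuaternionGroup (2 ^ n)))) →
    ∀ a ∈ A, ∀ x ∈ P, a * x = x * a

/-- Q9a: a perfect group acting coprimely on a solvable group with `ZasAx` acts trivially. -/
def StQ9a : Prop :=
  ∀ (G : Type u) [Group G] [Finite G] (H A : Subgroup G), Group.IsSolvable H → ZasAx H →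
    (∀ a ∈ A, ∀ x ∈ H, a * x * a⁻¹ ∈ H) → commutator A = ⊤ →
    (Nat.card A).Coprime (Nat.card H) → ∀ a ∈ A, ∀ x ∈ H, a * x = x * a

/-- Q9b: a perfect subgroup of the centralizer of `H` lies in `O`. -/
def StQ9b : Prop :=
  ∀ (G : Type u) [Group G] [Finite G] (H O A : Subgroup G),
    (Nat.card H).Coprime (H.subgroupOf (Subgroup.normalizer (H : Set G))).index →
    O.Normal → (Nat.card O).Coprime (Nat.card H) →
    (∀ K : Subgroup G, K.Normal → (Nat.card K).Coprime (Nat.card H) → K ≤ O) →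
    O ⊔ Subgroup.normalizer (H : Set G) = ⊤ →
    commutator A = ⊤ → (∀ a ∈ A, ∀ x ∈ H, a * x = x * a) → A ≤ O

/-- Q9: the normalizer of `H` is solvable. -/
def StQ9 : Prop :=
  ∀ (G : Type u) [Group G] [Finite G] (H O : Subgroup G), Group.IsSolvable H → ZasAx H →
    (Nat.card H).Coprime (H.subgroupOf (Subgroup.normalizer (H : Set G))).index →
    O.Normal → Group.IsSolvable O → (Nat.card O).Coprime (Nat.card H) →
    (∀ K : Subgroup G, K.Normal → (Nat.card K).Coprime (Nat.card H) → K ≤ O) →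
    O ⊔ Subgroup.normalizer (H : Set G) = ⊤ →
    Group.IsSolvable ↥(Subgroup.normalizer (H : Set G))

end Cfsg.Agent.H72.Zas
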