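import Mathlib

/-!
# Zassenhaus' theorem (S0690): shared definitions and the exact statements of the pieces

A perfect nontrivial group of fixed-point-free automorphisms of a finite group is `SL(2,5)`.
This file only contains definitions; every `St…` below is the exact statement of one piece of
the team project (helper72).  A piece `X` is landed as a theorem `… : StX` (possibly with other
`St…` as hypotheses).
-/

set_option autoImplicit false

namespace Cfsg.Agent.H72.Zas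

universe u

/-- A fixed-point-free embedding of a group into the multiplicative monoid of a ring. -/
structure FpfRing (G : Type u) [Group G] (E : Type u) [Ring E] where
  /-- the embedding -/
  ι : G →* E
  inj : Function.Injective ι
  unit : ∀ g : G, g ≠ 1 → IsUnit (ι g - 1)

/-- cyclic, dihedral, `A₄`, `S₄` or `A₅`. -/
def Small5 (Q : Type u) [Group Q] : Prop :=
  IsCyclic Q ∨ (∃ k : ℕ, Nonempty (Q ≃* DihedralGroup k)) ∨
    Nonempty (Q ≃* alternatingGroup (Fin 4)) ∨ Nonempty (Q ≃* Equiv.Perm (Fin 4)) ∨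
    Nonempty (Q ≃* alternatingGroup (Fin 5))

/-- A quaternion pair `t, s` (orders 4, `s` inverts `t`) with an element `x` of order 3 permuting
`t → s → t*s` by conjugation. -/
structure Frame {G : Type u} [Group G] (t s x : G) : Prop where
  ot : orderOf t = 4
  os : orderOf s = 4
  inv : s * t * s⁻¹ = t⁻¹
  ox : orderOf x = 3
  xt : x * t * x⁻¹ = s
  xs : x * s * x⁻¹ = t * s

/-- `y` moves `⟨t⟩ → ⟨s⟩ → ⟨t*s⟩` by conjugation. -/
def Cyc3 {G : Type u} [Group G] (t s y : G) : Prop :=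
  (y * t * y⁻¹ = s ∨ y * t * y⁻¹ = s⁻¹) ∧ (y * s * y⁻¹ = t * s ∨ y * s * y⁻¹ = (t * s)⁻¹)

/-- every quaternion pair is (up to inverting its members) cyclically permuted by a 3-element. -/
def Act (G : Type u) [Group G] : Prop :=
  ∀ t s : G, orderOf t = 4 → orderOf s = 4 → s * t * s⁻¹ = t⁻¹ →
    ∃ y t' s' : G, (t' = t ∨ t' = t⁻¹) ∧ (s' = s ∨ s' = s⁻¹) ∧ y * t' * y⁻¹ = s' ∧
      y * s' * y⁻¹ = t' * s' ∧ ∃ j : ℕ, orderOf y = 3 ^ j

/-- all elements of order 4 are conjugate. -/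
def Conj4 (G : Type u) [Group G] : Prop :=
  ∀ u v : G, orderOf u = 4 → orderOf v = 4 → ∃ g : G, g * u * g⁻¹ = v

/-- The group-theoretic consequences of a fixed-point-free ring embedding which are used. -/
structure ZasAx (G : Type u) [Group G] : Prop where
  ab : ∀ A : Subgroup G, (∀ x ∈ A, ∀ y ∈ A, x * y = y * x) → IsCyclic A
  pq : ∀ (A : Subgroup G) (p q : ℕ), p.Prime → q.Prime → Nat.card A = p * q → IsCyclic A
  invol : ∀ x y : G, orderOf x = 2 → orderOf y = 2 → x = y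
  u2 : ∀ t s x u : G, Frame t s x → Odd (orderOf u) → u * t = t * u → s * u * s⁻¹ = u⁻¹ → u = 1
  caseB : ∀ (a b t₁ s₁ x₁ t₂ s₂ x₂ : G) (n : ℕ), orderOf a = 4 * n → Even n → orderOf b = 4 →
    b * a * b⁻¹ = a⁻¹ → (t₁ = a ^ n ∨ t₁ = (a ^ n)⁻¹) → (s₁ = b ∨ s₁ = b⁻¹) →
    (t₂ = a ^ n ∨ t₂ = (a ^ n)⁻¹) → (s₂ = a * b ∨ s₂ = (a * b)⁻¹) →
    Frame t₁ s₁ x₁ → Frame t₂ s₂ x₂ → False

/-! ## Ring side -/

/-- BR1: the bridge, part 1 (the acted-on group is abelian). -/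
def StBr1 : Prop :=
  ∀ (K : Type u) [Group K] [Finite K] (G : Subgroup (MulAut K)),
    (∀ φ ∈ G, φ ≠ 1 → ∀ k : K, φ k = k → k = 1) → commutator G = ⊤ → G ≠ ⊥ →
    ∀ a b : K, a * b = b * a

/-- BR2: the bridge, part 2 (the endomorphism ring). -/
def StBr2 : Prop :=
  ∀ (K : Type u) [Group K] [Finite K] (G : Subgroup (MulAut K)),
    (∀ φ ∈ G, φ ≠ 1 → ∀ k : K, φ k = k → k = 1) → (∀ a b : K, a * b = b * a) →
    ∃ (E : Type u) (_ : Ring E) (_ : Finite E), Nonempty (FpfRing G E)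

/-- RB: basic consequences. -/
def StRb : Prop :=
  ∀ (G : Type u) [Group G] [Finite G] (E : Type u) [Ring E] [Finite E] (R : FpfRing G E),
    (∀ g : G, orderOf g = 2 → R.ι g = -1) ∧
    (∀ g : G, orderOf g = 4 → R.ι g * R.ι g = -1) ∧
    (∀ A : Subgroup G, (∀ x ∈ A, ∀ y ∈ A, x * y = y * x) → IsCyclic A) ∧
    (∀ (A : Subgroup G) (p q : ℕ), p.Prime → q.Prime → Nat.card A = p * q → IsCyclic A)

/-- P3: the image of the 3-element of a frame. -/
def StP3 : Prop :=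
  ∀ (G : Type u) [Group G] [Finite G] (E : Type u) [Ring E] [Finite E] (R : FpfRing G E)
    (t s x : G), Frame t s x → 2 * R.ι x = -(1 + R.ι t + R.ι s + R.ι t * R.ι s)

/-- EMB: a subgroup generated by norm-one elements of a commutative-coefficient quaternion span
embeds into `SL₂` of a finite field, without eigenvalue 1. -/
def StEmb : Prop :=
  ∀ (G : Type u) [Group G] [Finite G] (E : Type u) [Ring E] [Finite E] [Nontrivial E]
    (R : FpfRing G E) (t s : E), t * t = -1 → s * s = -1 → s * t = -(t * s) → IsUnit (2 : E) →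
    ∀ B : Subring E, (∀ a ∈ B, ∀ b ∈ B, a * b = b * a) → (∀ b ∈ B, b * t = t * b) →
    (∀ b ∈ B, b * s = s * b) →
    ∀ X : Set G, (∀ g ∈ X, ∃ b₀ ∈ B, ∃ b₁ ∈ B, ∃ b₂ ∈ B, ∃ b₃ ∈ B,
      R.ι g = b₀ + t * b₁ + s * b₂ + t * s * b₃ ∧ b₀ * b₀ + b₁ * b₁ + b₂ * b₂ + b₃ * b₃ = 1) →
    ∃ (F : Type u) (_ : Field F) (_ : Finite F)
      (φ : ↥(Subgroup.closure X) →* Matrix.SpecialLinearGroup (Fin 2) F),
      (∀ g, g ≠ 1 → ((φ g : Matrix (Fin 2) (Fin 2) F) - 1).det ≠ 0) ∧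
      (∀ g : ↥(Subgroup.closure X), R.ι (g : G) = -1 → (φ g : Matrix (Fin 2) (Fin 2) F) = -1)

/-- DKS: Dickson for subgroups of `SL₂(F)` without unipotent-type elements. -/
def StDks : Prop :=
  ∀ (F : Type u) [Field F] [Finite F] (L : Subgroup (Matrix.SpecialLinearGroup (Fin 2) F)),
    (∃ g ∈ L, (g : Matrix (Fin 2) (Fin 2) F) = -1) →
    (∀ g ∈ L, (g : Matrix (Fin 2) (Fin 2) F) ≠ 1 → (g : Matrix (Fin 2) (Fin 2) F) ≠ -1 →
      (Matrix.trace (g : Matrix (Fin 2) (Fin 2) F)) ^ 2 ≠ 4) →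
    ∃ (Q : Type u) (_ : Group Q) (π : ↥L →* Q), Function.Surjective π ∧
      (∀ g : ↥L, π g = 1 ↔ (((g : Matrix.SpecialLinearGroup (Fin 2) F) :
          Matrix (Fin 2) (Fin 2) F) = 1 ∨
        ((g : Matrix.SpecialLinearGroup (Fin 2) F) : Matrix (Fin 2) (Fin 2) F) = -1)) ∧
      Small5 Q

/-- SL2: EMB + DKS. -/
def StSl2 : Prop :=
  ∀ (G : Type u) [Group G] [Finite G] (E : Type u) [Ring E] [Finite E] [Nontrivial E]
    (R : FpfRing G E) (t s : E), t * t = -1 → s * s = -1 → s * t = -(t * s) → IsUnit (2 : E) →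
    ∀ B : Subring E, (∀ a ∈ B, ∀ b ∈ B, a * b = b * a) → (∀ b ∈ B, b * t = t * b) →
    (∀ b ∈ B, b * s = s * b) →
    ∀ X : Set G, (∀ g ∈ X, ∃ b₀ ∈ B, ∃ b₁ ∈ B, ∃ b₂ ∈ B, ∃ b₃ ∈ B,
      R.ι g = b₀ + t * b₁ + s * b₂ + t * s * b₃ ∧ b₀ * b₀ + b₁ * b₁ + b₂ * b₂ + b₃ * b₃ = 1) →
    (∃ g ∈ Subgroup.closure X, R.ι g = -1) →
    ∃ (Q : Type u) (_ : Group Q) (π : ↥(Subgroup.closure X) →* Q), Function.Surjective π ∧
      (∀ g : ↥(Subgroup.closure X), π g = 1 ↔ (R.ι (g : G) = 1 ∨ R.ι (g : G) = -1)) ∧ Small5 Q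

/-- TYP1. -/
def StTyp1 : Prop :=
  ∀ (Q : Type u) [Group Q] [Finite Q], Small5 Q → ∀ t s x u : Q, t ≠ 1 → t * t = 1 →
    s * t = t * s → x * t * x⁻¹ = s → x * s * x⁻¹ = t * s → Odd (orderOf u) → u * t = t * u →
    u = 1

/-- TYP2. -/
def StTyp2 : Prop :=
  ∀ (Q : Type u) [Group Q] [Finite Q], Small5 Q → ∀ (a b x₁ x₂ : Q) (n : ℕ),
    orderOf a = 2 * n → Even n → b * b = 1 → b * a * b⁻¹ = a⁻¹ →
    x₁ * a ^ n * x₁⁻¹ = b → x₁ * b * x₁⁻¹ = a ^ n * b →
    x₂ * a ^ n * x₂⁻¹ = a * b → x₂ * (a * b) * x₂⁻¹ = a ^ n * (a * b) → False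

/-- U2 (ring form of `ZasAx.u2`). -/
def StU2 : Prop :=
  ∀ (G : Type u) [Group G] [Finite G] (E : Type u) [Ring E] [Finite E] (_R : FpfRing G E)
    (t s x u : G), Frame t s x → Odd (orderOf u) → u * t = t * u → s * u * s⁻¹ = u⁻¹ → u = 1

/-- CASEB (ring form of `ZasAx.caseB`). -/
def StRcb : Prop :=
  ∀ (G : Type u) [Group G] [Finite G] (E : Type u) [Ring E] [Finite E] (_R : FpfRing G E)
    (a b t₁ s₁ x₁ t₂ s₂ x₂ : G) (n : ℕ), orderOf a = 4 * n → Even n → orderOf b = 4 →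
    b * a * b⁻¹ = a⁻¹ → (t₁ = a ^ n ∨ t₁ = (a ^ n)⁻¹) → (s₁ = b ∨ s₁ = b⁻¹) →
    (t₂ = a ^ n ∨ t₂ = (a ^ n)⁻¹) → (s₂ = a * b ∨ s₂ = (a * b)⁻¹) →
    Frame t₁ s₁ x₁ → Frame t₂ s₂ x₂ → False

/-! ## Group side -/

/-- SYL: `p`-subgroups are cyclic or generalized quaternion; centralizers of elements of order 4
have cyclic Sylow subgroups; a perfect group has quaternion Sylow 2-subgroups. -/
def StSyl : Prop :=
  ∀ (G : Type u) [Group G] [Finite G], ZasAx G →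
    (∀ (p : ℕ) [Fact p.Prime] (H : Subgroup G), IsPGroup p H →
      IsCyclic H ∨ (p = 2 ∧ ∃ n : ℕ, 1 ≤ n ∧ Nonempty (H ≃* QuaternionGroup (2 ^ n)))) ∧
    (∀ t : G, orderOf t = 4 → ∀ (p : ℕ) [Fact p.Prime]
      (P : Sylow p (Subgroup.centralizer ({t} : Set G))), IsCyclic P) ∧
    (commutator G = ⊤ → Nontrivial G → ∀ S : Sylow 2 G,
      ∃ n : ℕ, 1 ≤ n ∧ Nonempty (S ≃* QuaternionGroup (2 ^ n)))

/-- CONJ4: in a perfect group with quaternion Sylow 2-subgroups all elements of order 4 are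
conjugate (focal subgroup theorem). -/
def StConj4 : Prop :=
  ∀ (G : Type u) [Group G] [Finite G], commutator G = ⊤ → ∀ (S : Sylow 2 G) (n : ℕ), 1 ≤ n →
    Nonempty (S ≃* QuaternionGroup (2 ^ n)) → Conj4 G

/-- ACTA. -/
def StActA : Prop :=
  ∀ (G : Type u) [Group G] [Finite G] (S : Sylow 2 G), Nonempty (S ≃* QuaternionGroup 2) →
    Conj4 G → ∀ t s : G, orderOf t = 4 → orderOf s = 4 → s * t * s⁻¹ = t⁻¹ → t * t = s * s →
    ∃ y : G, Cyc3 t s y

/-- ACTB. -/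
def StActB : Prop :=
  ∀ (G : Type u) [Group G] [Finite G] (S : Sylow 2 G) (n : ℕ), 2 ≤ n →
    Nonempty (S ≃* QuaternionGroup (2 ^ n)) →
    Conj4 G → ∀ t s : G, orderOf t = 4 → orderOf s = 4 → s * t * s⁻¹ = t⁻¹ → t * t = s * s →
    ∃ y : G, Cyc3 t s y

/-- ACT3. -/
def StAct3 : Prop :=
  ∀ (G : Type u) [Group G] [Finite G] (t s y : G), orderOf t = 4 → orderOf s = 4 →
    s * t * s⁻¹ = t⁻¹ → t * t = s * s → Cyc3 t s y →
    ∃ y' t' s' : G, (t' = t ∨ t' = t⁻¹) ∧ (s' = s ∨ s' = s⁻¹) ∧ y' * t' * y'⁻¹ = s' ∧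
      y' * s' * y'⁻¹ = t' * s' ∧ ∃ j : ℕ, orderOf y' = 3 ^ j

/-- G2: no element of order 3 centralizes a Sylow 2-subgroup of a perfect group with cyclic
Sylow 3-subgroups. -/
def StG2 : Prop :=
  ∀ (G : Type u) [Group G] [Finite G], commutator G = ⊤ → (∀ P : Sylow 3 G, IsCyclic P) →
    ∀ (S : Sylow 2 G) (w : G), orderOf w = 3 → (∀ g ∈ S, g * w = w * g) → False

/-- LU: a subgroup with cyclic Sylow subgroups, in a group whose subgroups of order `pq` are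
cyclic, has at most one subgroup of each prime order. -/
def StLu : Prop :=
  ∀ (G : Type u) [Group G] [Finite G],
    (∀ (A : Subgroup G) (p q : ℕ), p.Prime → q.Prime → Nat.card A = p * q → IsCyclic A) →
    ∀ C : Subgroup G, (∀ (p : ℕ) [Fact p.Prime] (P : Sylow p C), IsCyclic P) →
    ∀ p : ℕ, p.Prime → ∀ x y : G, x ∈ C → y ∈ C → orderOf x = p → orderOf y = p →
    y ∈ Subgroup.zpowers x

/-- CA1: the normalizer of `⟨t⟩` when the Sylow 2-subgroups are `Q₈`. -/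
def StCa1 : Prop :=
  ∀ (G : Type u) [Group G] [Finite G], ZasAx G → ∀ S : Sylow 2 G,
    Nonempty (S ≃* QuaternionGroup 2) → ∀ t s x : G, Frame t s x →
    ∀ g : G, (g * t * g⁻¹ = t ∨ g * t * g⁻¹ = t⁻¹) →
    ∃ q k : G, g = q * k ∧ q ∈ Subgroup.closure {t, s} ∧ Odd (orderOf k) ∧ k * t = t * k ∧
      k * s = s * k

/-- NOZ: no nontrivial normal subgroups of odd order. -/
def StNoz : Prop :=
  ∀ (G : Type u) [Group G] [Finite G], ZasAx G → commutator G = ⊤ →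
    ∀ N : Subgroup G, N.Normal → Odd (Nat.card N) → N = ⊥

/-- PN: proper normal subgroups have exponent 2. -/
def StPn : Prop :=
  ∀ (G : Type u) [Group G] [Finite G], ZasAx G → commutator G = ⊤ → ∀ S : Sylow 2 G,
    Nonempty (S ≃* QuaternionGroup 2) → Conj4 G →
    ∀ N : Subgroup G, N.Normal → N ≠ ⊤ → ∀ g ∈ N, g * g = 1

/-- A5: the order is 120. -/
def StA5 : Prop :=
  ∀ (G : Type u) [Group G] [Finite G], ZasAx G → commutator G = ⊤ →
    (∀ N : Subgroup G, N.Normal → N ≠ ⊤ → ∀ g ∈ N, g * g = 1) →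
    ∀ t s : G, orderOf t = 4 → orderOf s = 4 → s * t * s⁻¹ = t⁻¹ →
    (∀ g : G, (g * t * g⁻¹ = t ∨ g * t * g⁻¹ = t⁻¹) →
      ∃ q k : G, g = q * k ∧ q ∈ Subgroup.closure {t, s} ∧ Odd (orderOf k) ∧ k * t = t * k ∧
        k * s = s * k) →
    Nat.card G = 120

/-- CB: the Sylow 2-subgroups cannot have order ≥ 16. -/
def StCb : Prop :=
  ∀ (G : Type u) [Group G] [Finite G], ZasAx G → ∀ (S : Sylow 2 G) (n : ℕ), 2 ≤ n →
    Nonempty (S ≃* QuaternionGroup (2 ^ n)) → Act G →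
    (∀ w : G, orderOf w = 3 → (∀ g ∈ S, g * w = w * g) → False) →
    (∀ t : G, orderOf t = 4 → ∀ x y : G, orderOf x = 3 → orderOf y = 3 → x * t = t * x →
      y * t = t * y → y ∈ Subgroup.zpowers x) →
    False

/-- MAIN: the group-theoretic theorem. -/
def StMain : Prop :=
  ∀ (G : Type u) [Group G] [Finite G], ZasAx G → commutator G = ⊤ → Nontrivial G →
    Nonempty (G ≃* Matrix.SpecialLinearGroup (Fin 2) (ZMod 5))

/-! ## Basic facts about `FpfRing` (proved here) -/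

section Basic

variable {G : Type u} [Group G] {E : Type u} [Ring E] (R : FpfRing G E)

namespace FpfRing

theorem map_ne_one {g : G} (hg : g ≠ 1) : R.ι g ≠ 1 := by
  intro h
  apply hg
  apply R.inj
  rw [h, map_one]

/-- an involution maps to `-1`. -/
theorem map_invol {g : G} (hg : orderOf g = 2) : R.ι g = -1 := by
  have h1 : g ≠ 1 := by
    intro h; rw [h, orderOf_one] at hg; omega
  have h2 : g * g = 1 := by
    have := pow_orderOf_eq_one g
    rw [hg, pow_two] at this; exact this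
  obtain ⟨u, hu⟩ := R.unit g h1
  have h3 : (R.ι g - 1) * (R.ι g + 1) = 0 := by
    have h4 : R.ι g * R.ι g = 1 := by rw [← map_mul, h2, map_one]
    calc (R.ι g - 1) * (R.ι g + 1) = R.ι g * R.ι g - 1 := by noncomm_ring
      _ = 0 := by rw [h4]; simp
  rw [← hu] at h3
  have h5 : R.ι g + 1 = 0 := by
    have := congrArg (fun x => (↑u⁻¹ : E) * x) h3
    simpa [← mul_assoc] using this
  exact eq_neg_of_add_eq_zero_left h5

theorem sq_four {g : G} (hg : orderOf g = 4) : orderOf (g * g) = 2 := by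
  have h := orderOf_pow' g (n := 2) (by norm_num)
  rw [hg] at h
  rw [← pow_two, h]
  rfl

/-- an element of order 4 squares to `-1`. -/
theorem map_four {g : G} (hg : orderOf g = 4) : R.ι g * R.ι g = -1 := by
  rw [← map_mul]
  exact R.map_invol (sq_four hg)

theorem map_inv_four {g : G} (hg : orderOf g = 4) : R.ι g⁻¹ = -R.ι g := by
  have h1 := R.map_four hg
  have h2 : R.ι g⁻¹ * R.ι g = 1 := by rw [← map_mul, inv_mul_cancel, map_one]
  calc R.ι g⁻¹ = -(R.ι g⁻¹ * (R.ι g * R.ι g)) := by rw [h1]; simp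
    _ = -R.ι g := by rw [← mul_assoc, h2, one_mul]

/-- a quaternion pair anticommutes. -/
theorem anti {t s : G} (ht : orderOf t = 4) (h : s * t * s⁻¹ = t⁻¹) :
    R.ι s * R.ι t = -(R.ι t * R.ι s) := by
  have h1 : s * t = t⁻¹ * s := by
    calc s * t = (s * t * s⁻¹) * s := by group
      _ = t⁻¹ * s := by rw [h]
  rw [← map_mul, h1, map_mul, R.map_inv_four ht]
  simp

theorem isUnit_two (R : FpfRing G E) {g : G} (hg : orderOf g = 2) : IsUnit (2 : E) := by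
  have h1 : g ≠ 1 := by
    intro h; rw [h, orderOf_one] at hg; omega
  have h2 := R.unit g h1
  rw [R.map_invol hg] at h2
  have h3 : (-1 - 1 : E) = -2 := by norm_num
  rw [h3] at h2
  have h4 := h2.neg
  rwa [neg_neg] at h4

end FpfRing

end Basic

end Cfsg.Agent.H72.Zas
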