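import Mathlib

/-!
# Shared definitions for the S4125 (q-Baer groups) team project

`TH p q V A` : hypotheses of "Lemma T": `A ≤ MulAut V` is a `q'`-group of automorphisms of the
finite abelian `q`-group `V`, all of whose orbits on `V` have `p`-power size.
-/

set_option autoImplicit false

namespace Cfsg.Agent.H72.BaerT

universe u

/-- `W` is invariant under the automorphism group `A`. -/
def Inv {V : Type u} [Group V] (A : Subgroup (MulAut V)) (W : Subgroup V) : Prop :=
  ∀ a ∈ A, ∀ w ∈ W, a w ∈ W

/-- `V` has no proper nontrivial `A`-invariant subgroup. -/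
def Irr {V : Type u} [Group V] (A : Subgroup (MulAut V)) : Prop :=
  ∀ W : Subgroup V, Inv A W → W = ⊥ ∨ W = ⊤

/-- `N ≤ A` and `A` normalizes `N`. -/
def NormalIn {H : Type u} [Group H] (N A : Subgroup H) : Prop :=
  N ≤ A ∧ ∀ a ∈ A, ∀ n ∈ N, a * n * a⁻¹ ∈ N

/-- `P` is a Sylow `p`-subgroup of `A` (both subgroups of an ambient group). -/
def IsSyl {H : Type u} [Group H] (p : ℕ) (P A : Subgroup H) : Prop :=
  P ≤ A ∧ IsPGroup p P ∧ ¬ p ∣ P.relIndex A

/-- Hypotheses of Lemma T. -/
structure TH (p q : ℕ) (V : Type u) [CommGroup V] (A : Subgroup (MulAut V)) : Prop where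
  hp : p.Prime
  hq : q.Prime
  hV : IsPGroup q V
  hA : (Nat.card A).Coprime q
  horb : ∀ v : V, ∃ a : ℕ, Nat.card (MulAction.orbit A v) = p ^ a

/-- The "minimal counterexample" context of Lemma T: `P` a Sylow `p`-subgroup of `A`,
`V` is `P`-irreducible, and every proper normal subgroup of `A` is solvable. -/
structure MC (p q : ℕ) (V : Type u) [CommGroup V] (A P : Subgroup (MulAut V)) : Prop where
  th : TH p q V A
  syl : IsSyl p P A
  irr : Irr P
  ih : ∀ N : Subgroup (MulAut V), NormalIn N A → N ≠ A → Group.IsSolvable N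

end Cfsg.Agent.H72.BaerT
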