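import Cfsg.Agent.H72.Fg7Defs

/-!
# S4151 (π-separable groups with a TI Hall subgroup of its normalizer, abelian Sylow 2-subgroups):
exact statements of the pieces (helper72).  Continues `Cfsg.Agent.H72.Fg7Defs` (S4118).
-/

set_option autoImplicit false

namespace Cfsg.Agent.H72.Zas

universe u

/-- R1a: a `p`-subgroup of a TI subgroup `H` acting non-trivially on a normal subgroup `O` of
coprime order (NOT assumed solvable) acts faithfully and fixed-point-freely on some finite abelian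
group. -/
def StR1a : Prop :=
  ∀ (G : Type u) [Group G] [Finite G] (H O : Subgroup G), Cfsg.IsTISubset (H : Set G) →
    O.Normal → (Nat.card O).Coprime (Nat.card H) →
    (¬ ∀ x ∈ O, ∀ h ∈ H, x * h = h * x) →
    ∀ (p : ℕ) [Fact p.Prime] (P : Subgroup G), P ≤ H → IsPGroup p P →
    ∃ (U : Type u) (_ : CommGroup U) (_ : Finite U) (φ : P →* MulAut U), Function.Injective φ ∧
      ∀ h : P, h ≠ 1 → ∀ u : U, φ h u = u → u = 1

/-- R1: the Sylow subgroups of such an `H` are cyclic or generalized quaternion. -/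
def StR1 : Prop :=
  ∀ (G : Type u) [Group G] [Finite G] (H O : Subgroup G), Cfsg.IsTISubset (H : Set G) →
    O.Normal → (Nat.card O).Coprime (Nat.card H) →
    (¬ ∀ x ∈ O, ∀ h ∈ H, x * h = h * x) →
    ∀ (p : ℕ) [Fact p.Prime] (P : Sylow p H),
      IsCyclic P ∨ (p = 2 ∧ ∃ n : ℕ, 1 ≤ n ∧ Nonempty (P ≃* QuaternionGroup (2 ^ n)))

/-- R2: coprime action (by conjugation) on a group with cyclic Sylow subgroups, internal form:
`H = W ⋊ C_H(Q)` with `W = [H, Q]` and `C_H(Q)` a Hall subgroup of `H`. -/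
def StR2 : Prop :=
  ∀ (G : Type u) [Group G] [Finite G] (H Q : Subgroup G),
    (∀ q ∈ Q, ∀ h ∈ H, q * h * q⁻¹ ∈ H) → (Nat.card Q).Coprime (Nat.card H) →
    (∀ (p : ℕ) [Fact p.Prime] (P : Sylow p H), IsCyclic P) →
    ∃ W : Subgroup G, W ≤ H ∧ (∀ g ∈ H, ∀ w ∈ W, g * w * g⁻¹ ∈ W) ∧
      (∀ g ∈ Q, ∀ w ∈ W, g * w * g⁻¹ ∈ W) ∧
      W ⊔ (H ⊓ Subgroup.centralizer (Q : Set G)) = H ∧
      (Nat.card ↥(H ⊓ Subgroup.centralizer (Q : Set G))).Coprime (Nat.card W) ∧
      Nat.card W * Nat.card ↥(H ⊓ Subgroup.centralizer (Q : Set G)) = Nat.card H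

/-- R3: the normal complement of `C_H(Q)`. -/
def StR3 : Prop :=
  ∀ (G : Type u) [Group G] [Finite G] (H O Q W : Subgroup G),
    (Nat.card H).Coprime (H.subgroupOf (Subgroup.normalizer (H : Set G))).index →
    (Nat.card H).Coprime H.index →
    O.Normal → (Nat.card O).Coprime (Nat.card H) →
    O ⊔ Subgroup.normalizer (H : Set G) = ⊤ →
    Q ≤ Subgroup.normalizer (H : Set G) → Q ⊓ H = ⊥ → Q ⊔ H = Subgroup.normalizer (H : Set G) →
    W ≤ H → (∀ g ∈ H, ∀ w ∈ W, g * w * g⁻¹ ∈ W) → (∀ g ∈ Q, ∀ w ∈ W, g * w * g⁻¹ ∈ W) →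
    W ⊔ (H ⊓ Subgroup.centralizer (Q : Set G)) = H →
    (Nat.card ↥(H ⊓ Subgroup.centralizer (Q : Set G))).Coprime (Nat.card W) →
    Nat.card W * Nat.card ↥(H ⊓ Subgroup.centralizer (Q : Set G)) = Nat.card H →
    (Nat.card ↥(H ⊓ Subgroup.centralizer (Q : Set G))).Coprime
        (H ⊓ Subgroup.centralizer (Q : Set G)).index ∧
    ∃ N : Subgroup G, N.Normal ∧ N.IsComplement' (H ⊓ Subgroup.centralizer (Q : Set G))

/-- R4: the order of a complement `Q` of `H` in `N_G(H)` is prime to the order of `H`. -/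
def StR4 : Prop :=
  ∀ (G : Type u) [Group G] [Finite G] (H Q : Subgroup G),
    (Nat.card H).Coprime (H.subgroupOf (Subgroup.normalizer (H : Set G))).index →
    Q ≤ Subgroup.normalizer (H : Set G) → Q ⊓ H = ⊥ → Q ⊔ H = Subgroup.normalizer (H : Set G) →
    (Nat.card Q).Coprime (Nat.card H) ∧ ∀ q ∈ Q, ∀ h ∈ H, q * h * q⁻¹ ∈ H

end Cfsg.Agent.H72.Zas
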