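import Mathlib

set_option autoImplicit false

namespace Cfsg.Agent.H72.Ito

open Finset

/-- reindexing a sum of powers of an element of order dividing a prime `q` -/
theorem sum_pow_mul_eq {R : Type*} [Ring R] (q : ℕ) (hq : q.Prime) (τ : R) (hτ : τ ^ q = 1)
    (c : ℕ) (hc0 : 0 < c) (hcq : c < q) :
    ∑ j ∈ range q, τ ^ (j * c) = ∑ j ∈ range q, τ ^ j := by
  have hco : Nat.Coprime c q := by
    rw [Nat.coprime_comm, Nat.Prime.coprime_iff_not_dvd hq]
    exact Nat.not_dvd_of_pos_of_lt hc0 hcq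
  have hinj : Set.InjOn (fun j => (j * c) % q) (range q : Set ℕ) := by
    intro j₁ h₁ j₂ h₂ h
    simp only [coe_range, Set.mem_Iio] at h₁ h₂
    have h' : j₁ * c ≡ j₂ * c [MOD q] := h
    have h'' : j₁ ≡ j₂ [MOD q] := Nat.ModEq.cancel_right_of_coprime hco.symm h'
    have := h''
    unfold Nat.ModEq at this
    rwa [Nat.mod_eq_of_lt h₁, Nat.mod_eq_of_lt h₂] at this
  have hmaps : ∀ j ∈ range q, (j * c) % q ∈ range q := fun j _ =>
    mem_range.mpr (Nat.mod_lt _ hq.pos)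
  refine Finset.sum_nbij (fun j => (j * c) % q) hmaps hinj ?_ ?_
  · exact Finset.surjOn_of_injOn_of_card_le _ hmaps hinj le_rfl
  · intro j _
    exact pow_eq_pow_mod _ hτ

theorem ring_key {R : Type*} [Ring R] (q : ℕ) (hq : q.Prime) (σ τ : R) (hc : Commute σ τ)
    (hτ : τ ^ q = 1) :
    ∑ j ∈ range q, ∑ k ∈ range q, (σ * τ ^ j) ^ k
      = (q : R) + (∑ k ∈ range (q - 1), σ ^ (k + 1)) * ∑ j ∈ range q, τ ^ j := by
  rw [Finset.sum_comm]
  have hq1 : q = (q - 1) + 1 := (Nat.sub_add_cancel hq.pos).symm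
  have e : ∀ k, ∑ j ∈ range q, (σ * τ ^ j) ^ k = σ ^ k * ∑ j ∈ range q, τ ^ (j * k) := by
    intro k
    rw [Finset.mul_sum]
    refine Finset.sum_congr rfl fun j _ => ?_
    rw [(hc.pow_right j).mul_pow, ← pow_mul]
  simp_rw [e]
  conv_lhs => rw [hq1, Finset.sum_range_succ']
  rw [← hq1]
  simp only [Nat.mul_zero, pow_zero, one_mul, sum_const, card_range, nsmul_eq_mul, mul_one]
  rw [add_comm, Finset.sum_mul]
  congr 1
  refine Finset.sum_congr rfl fun k hk => ?_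
  rw [sum_pow_mul_eq q hq τ hτ (k + 1) (Nat.succ_pos k) (by have := mem_range.mp hk; omega)]

theorem fix_geom {R : Type*} [Ring R] (q : ℕ) (σ : R) (hσ : σ ^ q = 1) :
    σ * ∑ k ∈ range q, σ ^ k = ∑ k ∈ range q, σ ^ k := by
  have h := mul_geom_sum σ q
  rw [hσ, sub_self, sub_mul, one_mul, sub_eq_zero] at h
  exact h

/-- evaluation of endomorphisms at a point, as an additive map -/
def evalHom {A : Type*} [AddCommGroup A] (a : A) : AddMonoid.End A →+ A where
  toFun f := f a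
  map_zero' := rfl
  map_add' _ _ := rfl

theorem add_key {A : Type*} [AddCommGroup A] (q : ℕ) (hq : q.Prime) (σ τ : AddMonoid.End A)
    (hc : Commute σ τ) (hτ : τ ^ q = 1) (A₀ : AddSubgroup A) (hσ0 : ∀ a ∈ A₀, σ a = a) (a : A)
    (hN : (∑ j ∈ range q, τ ^ j) a ∈ A₀)
    (hNj : ∀ j < q, (∑ k ∈ range q, (σ * τ ^ j) ^ k) a ∈ A₀) : q • a ∈ A₀ := by
  have key := DFunLike.congr_fun (ring_key q hq σ τ hc hτ) a
  have hL : (∑ j ∈ range q, ∑ k ∈ range q, (σ * τ ^ j) ^ k) a ∈ A₀ := by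
    have e : (∑ j ∈ range q, ∑ k ∈ range q, (σ * τ ^ j) ^ k) a
        = ∑ j ∈ range q, (∑ k ∈ range q, (σ * τ ^ j) ^ k) a := map_sum (evalHom a) _ _
    rw [e]
    exact A₀.sum_mem fun j hj => hNj j (mem_range.mp hj)
  rw [key] at hL
  have hpow : ∀ k : ℕ, ∀ b ∈ A₀, (σ ^ k) b = b := by
    intro k
    induction k with
    | zero => intro b _; simp
    | succ k ih =>
      intro b hb
      rw [pow_succ, AddMonoid.End.coe_mul, Function.comp_apply, hσ0 b hb, ih b hb]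
  have hR : ((∑ k ∈ range (q - 1), σ ^ (k + 1)) * ∑ j ∈ range q, τ ^ j) a ∈ A₀ := by
    rw [AddMonoid.End.coe_mul, Function.comp_apply]
    have e : (∑ k ∈ range (q - 1), σ ^ (k + 1)) ((∑ j ∈ range q, τ ^ j) a)
        = ∑ k ∈ range (q - 1), (σ ^ (k + 1)) ((∑ j ∈ range q, τ ^ j) a) :=
      map_sum (evalHom ((∑ j ∈ range q, τ ^ j) a)) _ _
    rw [e]
    refine A₀.sum_mem fun k _ => ?_
    rw [hpow (k + 1) _ hN]
    exact hN
  have h3 : ((q : AddMonoid.End A) + (∑ k ∈ range (q - 1), σ ^ (k + 1)) * ∑ j ∈ range q, τ ^ j) a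
      = q • a + ((∑ k ∈ range (q - 1), σ ^ (k + 1)) * ∑ j ∈ range q, τ ^ j) a := by
    have e1 : ((q : AddMonoid.End A) + (∑ k ∈ range (q - 1), σ ^ (k + 1)) * ∑ j ∈ range q, τ ^ j) a
      = (q : AddMonoid.End A) a + ((∑ k ∈ range (q - 1), σ ^ (k + 1)) * ∑ j ∈ range q, τ ^ j) a :=
      rfl
    rw [e1, AddMonoid.End.natCast_apply]
  rw [h3] at hL
  exact (A₀.add_mem_cancel_right hR).mp hL

/-- The norm argument: two "independent" commuting automorphisms of exponent `q` whose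
fixed points (and those of the products `s * t ^ j`) all lie in `V₀` force `v ^ q ∈ V₀`. -/
theorem act_key {X V : Type*} [Group X] [CommGroup V] [MulDistribMulAction X V] (q : ℕ)
    (hq : q.Prime) (V₀ : Subgroup V) (s t : X)
    (hst : ∀ v : V, (s * t) • v = (t * s) • v)
    (ht : ∀ v : V, (t ^ q) • v = v)
    (hj : ∀ j < q, ∀ v : V, ((s * t ^ j) ^ q) • v = v)
    (hfixt : ∀ w : V, t • w = w → w ∈ V₀)
    (hfixj : ∀ j < q, ∀ w : V, (s * t ^ j) • w = w → w ∈ V₀)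
    (hs0 : ∀ z ∈ V₀, s • z = z) (v : V) : v ^ q ∈ V₀ := by
  set Φ : X →* AddMonoid.End (Additive V) :=
    (monoidEndToAdditive V : _ →* _).comp (MulDistribMulAction.toMonoidEnd X V) with hΦdef
  have hΦ : ∀ (g : X) (a : Additive V), Φ g a = Additive.ofMul (g • a.toMul) := fun _ _ => rfl
  have hΦ1 : ∀ g : X, (∀ w : V, g • w = w) → Φ g = 1 := by
    intro g hg
    ext a
    rw [hΦ, hg]
    rfl
  have hc : Commute (Φ s) (Φ t) := by
    show Φ s * Φ t = Φ t * Φ s
    rw [← map_mul, ← map_mul]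
    ext a
    rw [hΦ, hΦ, hst]
  have hτ : Φ t ^ q = 1 := by
    rw [← map_pow]
    exact hΦ1 _ ht
  have hnorm : ∀ g : X, (∀ w : V, (g ^ q) • w = w) → (∀ w : V, g • w = w → w ∈ V₀) →
      ∀ a : Additive V, (∑ k ∈ range q, Φ g ^ k) a ∈ V₀.toAddSubgroup := by
    intro g hgq hgfix a
    rw [Additive.mem_toAddSubgroup]
    apply hgfix
    have h1 : Φ g ^ q = 1 := by
      rw [← map_pow]
      exact hΦ1 _ hgq
    have h2 := DFunLike.congr_fun (fix_geom q (Φ g) h1) a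
    rw [AddMonoid.End.coe_mul, Function.comp_apply, hΦ] at h2
    exact congrArg Additive.toMul h2
  have hfin := add_key q hq (Φ s) (Φ t) hc hτ V₀.toAddSubgroup
    (by
      intro a ha
      rw [Additive.mem_toAddSubgroup] at ha
      rw [hΦ, hs0 _ ha]
      rfl)
    (Additive.ofMul v) (hnorm t ht hfixt (Additive.ofMul v))
    (by
      intro j hjq
      have := hnorm (s * t ^ j) (hj j hjq) (hfixj j hjq) (Additive.ofMul v)
      rwa [map_mul, map_pow] at this)
  rw [Additive.mem_toAddSubgroup] at hfin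
  exact hfin

end Cfsg.Agent.H72.Ito
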