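import Mathlib
import Cfsg.Agent.H72.Casolo

set_option autoImplicit false
open scoped Pointwise

namespace Cfsg.Agent.H72

/-- The elements `y` with `H ≤ A · P^y`. -/
def Sg {p : ℕ} {G : Type*} [Group G] (H : Subgroup G) (P : Sylow p G) (A : Subgroup G) : Set G :=
  {y | H ≤ A ⊔ ((y • P : Sylow p G) : Subgroup G)}

theorem mem_Sg {p : ℕ} {G : Type*} [Group G] {H : Subgroup G} {P : Sylow p G} {A : Subgroup G}
    {y : G} : y ∈ Sg H P A ↔ H ≤ A ⊔ ((y • P : Sylow p G) : Subgroup G) := Iff.rfl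

/-- A `p`-element of `B` lies in `A` when `[B : A]` is prime to `p`. -/
theorem mem_of_coprime_relIndex {G : Type*} [Group G] [Finite G] {p : ℕ} [Fact p.Prime]
    (A B : Subgroup G) [A.Normal] (hco : (A.relIndex B).Coprime p) (x : G)
    (hxB : x ∈ B) (k : ℕ) (hx : orderOf x = p ^ k) : x ∈ A := by
  have hn : (A.subgroupOf B).Normal := Subgroup.Normal.subgroupOf inferInstance B
  have h1 : (⟨x, hxB⟩ : B) ^ (A.subgroupOf B).index ∈ A.subgroupOf B :=
    Subgroup.pow_index_mem _ _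
  have h2 : ((A.subgroupOf B).index).Coprime (orderOf (⟨x, hxB⟩ : B)) := by
    rw [← Subgroup.orderOf_coe]
    simp only
    rw [hx]
    exact Nat.Coprime.pow_right k hco
  obtain ⟨m, hm⟩ := exists_pow_eq_self_of_coprime h2
  have h3 : (⟨x, hxB⟩ : B) ∈ A.subgroupOf B := by
    rw [← hm]; exact Subgroup.pow_mem _ h1 m
  exact Subgroup.mem_subgroupOf.mp h3

/-- A `p`-subgroup of `B · Q` is contained in a `B`-conjugate of the Sylow subgroup `Q`. -/
theorem exists_conj_of_le_sup {G : Type*} [Group G] [Finite G] {p : ℕ} [Fact p.Prime]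
    (B : Subgroup G) [B.Normal] (Q : Sylow p G) (H : Subgroup G) (hH : IsPGroup p H)
    (hle : H ≤ B ⊔ (Q : Subgroup G)) :
    ∃ b ∈ B, H ≤ ((b • Q : Sylow p G) : Subgroup G) := by
  set L : Subgroup G := B ⊔ (Q : Subgroup G) with hL
  have hQL : (Q : Subgroup G) ≤ L := le_sup_right
  obtain ⟨R, hR⟩ := (hH.comap_subtype (K := L)).exists_le_sylow
  obtain ⟨l, hl⟩ := MulAction.exists_smul_eq L (Q.subtype hQL) R
  have hlL : (l : G) ∈ ((B ⊔ (Q : Subgroup G) : Subgroup G) : Set G) := l.2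
  rw [Subgroup.normal_mul] at hlL
  obtain ⟨b, hb, q, hq, hbq⟩ := Set.mem_mul.mp hlL
  refine ⟨b, hb, ?_⟩
  intro h hh
  have h1 : (⟨h, hle hh⟩ : L) ∈ R := hR (Subgroup.mem_subgroupOf.mpr hh)
  rw [← hl] at h1
  have h2 : l⁻¹ * (⟨h, hle hh⟩ : L) * l ∈ Q.subtype hQL := mem_sylow_smul.mp h1
  have h3 : (l : G)⁻¹ * h * (l : G) ∈ (Q : Subgroup G) := by
    have : l⁻¹ * (⟨h, hle hh⟩ : L) * l ∈ (Q : Subgroup G).subgroupOf L := by
      rw [← Sylow.coe_subtype]; exact h2
    exact Subgroup.mem_subgroupOf.mp this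
  show h ∈ (b • Q : Sylow p G)
  rw [mem_sylow_smul]
  have h4 : b⁻¹ * h * b = q * ((l : G)⁻¹ * h * (l : G)) * q⁻¹ := by
    rw [← hbq]; group
  rw [h4]
  exact Subgroup.mul_mem _ (Subgroup.mul_mem _ hq h3) (Subgroup.inv_mem _ hq)

/-- The fibre count in the `p'`-step. -/
theorem card_fiber_pprime {G : Type*} [Group G] [Finite G] {p : ℕ} [Fact p.Prime]
    (H : Subgroup G) (hH : IsPGroup p H) (A B : Subgroup G) [A.Normal] [B.Normal] (hAB : A ≤ B)
    (hco : (A.relIndex B).Coprime p) (Q : Sylow p G) (hle : H ≤ B ⊔ (Q : Subgroup G)) :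
    Nat.card {b : G | b ∈ B ∧ H ≤ A ⊔ ((b • Q : Sylow p G) : Subgroup G)} =
      Nat.card {u : G // u ∈ B ∧ ∀ h ∈ H, h * u * h⁻¹ * u⁻¹ ∈ A} := by
  have hAn : A.Normal := inferInstance
  have hBn : B.Normal := inferInstance
  obtain ⟨b₀, hb₀, hHQ'⟩ := exists_conj_of_le_sup B Q H hH hle
  have key : ∀ m ∈ B, (H ≤ A ⊔ (((m * b₀) • Q : Sylow p G) : Subgroup G) ↔
      ∀ h ∈ H, h * m * h⁻¹ * m⁻¹ ∈ A) := by
    intro m hm
    rw [mul_smul]
    constructor
    · intro hle2 h hh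
      have h1 : h ∈ ((A ⊔ ((m • b₀ • Q : Sylow p G) : Subgroup G) : Subgroup G) : Set G) :=
        hle2 hh
      rw [Subgroup.normal_mul] at h1
      obtain ⟨a, ha, z, hz, haz⟩ := Set.mem_mul.mp h1
      have hz' : m⁻¹ * z * m ∈ (b₀ • Q : Sylow p G) := mem_sylow_smul.mp hz
      have hh' : h ∈ (b₀ • Q : Sylow p G) := hHQ' hh
      -- the `p`-element `w = (m⁻¹ z m) h⁻¹` of `Q'`
      have hw : m⁻¹ * z * m * h⁻¹ ∈ ((b₀ • Q : Sylow p G) : Subgroup G) :=
        Subgroup.mul_mem _ hz' (Subgroup.inv_mem _ hh')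
      have e1 : h * m * h⁻¹ * m⁻¹ = a * (m * (m⁻¹ * z * m * h⁻¹) * m⁻¹) := by
        rw [← haz]; group
      have hcomm : h * m * h⁻¹ * m⁻¹ ∈ B :=
        B.mul_mem (hBn.conj_mem m hm h) (B.inv_mem hm)
      have hwB' : m * (m⁻¹ * z * m * h⁻¹) * m⁻¹ ∈ B := by
        have : m * (m⁻¹ * z * m * h⁻¹) * m⁻¹ = a⁻¹ * (h * m * h⁻¹ * m⁻¹) := by
          rw [e1]; group
        rw [this]
        exact B.mul_mem (B.inv_mem (hAB ha)) hcomm
      have hwB : m⁻¹ * z * m * h⁻¹ ∈ B := by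
        have := hBn.conj_mem _ hwB' m⁻¹
        have e : m⁻¹ * (m * (m⁻¹ * z * m * h⁻¹) * m⁻¹) * m⁻¹⁻¹ = m⁻¹ * z * m * h⁻¹ := by group
        rwa [e] at this
      obtain ⟨k, hk⟩ := (IsPGroup.iff_orderOf.mp (b₀ • Q : Sylow p G).isPGroup') ⟨_, hw⟩
      rw [← Subgroup.orderOf_coe] at hk
      have hwA : m⁻¹ * z * m * h⁻¹ ∈ A := mem_of_coprime_relIndex A B hco _ hwB k hk
      rw [e1]
      exact A.mul_mem ha (hAn.conj_mem _ hwA m)
    · intro hc h hh
      have hh' : h ∈ (b₀ • Q : Sylow p G) := hHQ' hh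
      have e : h = (h * m * h⁻¹ * m⁻¹) * (m * h * m⁻¹) := by group
      rw [e]
      apply Subgroup.mul_mem_sup (hc h hh)
      show m * h * m⁻¹ ∈ (m • b₀ • Q : Sylow p G)
      rw [mem_sylow_smul]
      have e2 : m⁻¹ * (m * h * m⁻¹) * m = h := by group
      rw [e2]; exact hh'
  have himg : {b : G | b ∈ B ∧ H ≤ A ⊔ ((b • Q : Sylow p G) : Subgroup G)} =
      (fun m => m * b₀) '' {u : G | u ∈ B ∧ ∀ h ∈ H, h * u * h⁻¹ * u⁻¹ ∈ A} := by
    ext b
    constructor
    · rintro ⟨hb, hle2⟩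
      have hm : b * b₀⁻¹ ∈ B := B.mul_mem hb (B.inv_mem hb₀)
      refine ⟨b * b₀⁻¹, ⟨hm, (key _ hm).mp ?_⟩, by group⟩
      have e : b * b₀⁻¹ * b₀ = b := by group
      rw [e]; exact hle2
    · rintro ⟨m, ⟨hm, hc⟩, rfl⟩
      exact ⟨B.mul_mem hm hb₀, (key m hm).mpr hc⟩
  rw [himg, Nat.card_coe_set_eq, Set.ncard_image_of_injective _ (mul_left_injective b₀),
    ← Nat.card_coe_set_eq]
  rfl

/-- Translating by an element of the normal subgroup `B` does not change `B · P^y`. -/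
theorem sup_smul_eq_of_mem {G : Type*} [Group G] {p : ℕ} (B : Subgroup G) [B.Normal]
    (Q : Sylow p G) (b : G) (hb : b ∈ B) :
    B ⊔ ((b • Q : Sylow p G) : Subgroup G) = B ⊔ (Q : Subgroup G) := by
  apply le_antisymm
  · apply sup_le le_sup_left
    intro x hx
    have hx' : b⁻¹ * x * b ∈ Q := mem_sylow_smul.mp hx
    have e : x = b * (b⁻¹ * x * b) * b⁻¹ := by group
    rw [e]
    exact Subgroup.mul_mem _ (Subgroup.mul_mem _ (Subgroup.mem_sup_left hb)
      (Subgroup.mem_sup_right hx')) (Subgroup.mem_sup_left (B.inv_mem hb))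
  · apply sup_le le_sup_left
    intro x hx
    have hx' : b * x * b⁻¹ ∈ (b • Q : Sylow p G) := by
      rw [mem_sylow_smul]
      have e : b⁻¹ * (b * x * b⁻¹) * b = x := by group
      rw [e]; exact hx
    have e : x = b⁻¹ * (b * x * b⁻¹) * b := by group
    rw [e]
    exact Subgroup.mul_mem _ (Subgroup.mul_mem _ (Subgroup.mem_sup_left (B.inv_mem hb))
      (Subgroup.mem_sup_right hx')) (Subgroup.mem_sup_left hb)

theorem Sg_mono {p : ℕ} {G : Type*} [Group G] (H : Subgroup G) (P : Sylow p G)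
    {A B : Subgroup G} (hAB : A ≤ B) : Sg H P A ⊆ Sg H P B :=
  fun _ hy => le_trans hy (sup_le_sup_right hAB _)

theorem mul_mem_Sg {p : ℕ} {G : Type*} [Group G] (H : Subgroup G) (P : Sylow p G)
    (B : Subgroup G) [B.Normal] (b y : G) (hb : b ∈ B) :
    b * y ∈ Sg H P B ↔ y ∈ Sg H P B := by
  rw [mem_Sg, mem_Sg, mul_smul, sup_smul_eq_of_mem B (y • P) b hb]

/-- The `p'`-step. -/
theorem card_Sg_pprime {G : Type*} [Group G] [Finite G] {p : ℕ} [Fact p.Prime]
    (H : Subgroup G) (hH : IsPGroup p H) (P : Sylow p G) (A B : Subgroup G) [A.Normal]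
    [B.Normal] (hAB : A ≤ B) (hco : (A.relIndex B).Coprime p) :
    Nat.card (Sg H P A) * Nat.card B =
      Nat.card (Sg H P B) *
        Nat.card {u : G // u ∈ B ∧ ∀ h ∈ H, h * u * h⁻¹ * u⁻¹ ∈ A} := by
  set W : Set (G × G) := {x | x.1 ∈ B ∧ x.2 ∈ Sg H P B ∧ x.1 * x.2 ∈ Sg H P A} with hW
  have h1 : Nat.card W = Nat.card (Sg H P A) * Nat.card B := by
    rw [← Nat.card_prod]
    refine Nat.card_congr
      { toFun := fun x => (⟨x.1.1 * x.1.2, x.2.2.2⟩, ⟨x.1.1, x.2.1⟩)
        invFun := fun z => ⟨(z.2.1, z.2.1⁻¹ * z.1.1), z.2.2,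
          (mul_mem_Sg H P B _ _ (B.inv_mem z.2.2)).mpr (Sg_mono H P hAB z.1.2), by
            show z.2.1 * (z.2.1⁻¹ * z.1.1) ∈ Sg H P A
            rw [mul_inv_cancel_left]; exact z.1.2⟩
        left_inv := by
          rintro ⟨⟨b, y⟩, hb, hy, hby⟩
          simp
        right_inv := by
          rintro ⟨⟨z, hz⟩, ⟨b, hb⟩⟩
          simp }
  have h2 : Nat.card W = Nat.card (Sg H P B) *
      Nat.card {u : G // u ∈ B ∧ ∀ h ∈ H, h * u * h⁻¹ * u⁻¹ ∈ A} := by
    apply card_eq_mul_of_fibers (fun x : W => (⟨x.1.2, x.2.2.1⟩ : Sg H P B))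
    rintro ⟨y, hy⟩
    rw [← card_fiber_pprime H hH A B hAB hco (y • P) hy]
    refine Nat.card_congr
      { toFun := fun x => ⟨x.1.1.1, x.1.2.1, by
          have h3 := x.1.2.2.2
          have h4 : x.1.1.2 = y := congrArg Subtype.val x.2
          rw [h4] at h3
          have h5 : H ≤ A ⊔ (((x.1.1.1 * y) • P : Sylow p G) : Subgroup G) := h3
          rw [mul_smul] at h5
          exact h5⟩
        invFun := fun b => ⟨⟨(b.1, y), b.2.1, hy, by
          show H ≤ A ⊔ (((b.1 * y) • P : Sylow p G) : Subgroup G)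
          rw [mul_smul]; exact b.2.2⟩, rfl⟩
        left_inv := by
          rintro ⟨⟨⟨b, y'⟩, hb, hy', hby⟩, h⟩
          have h4 : y' = y := congrArg Subtype.val h
          subst h4
          rfl
        right_inv := fun b => rfl }
  rw [← h1, h2]

/-- The `p`-step: a normal section of `p`-power order is covered by every Sylow subgroup. -/
theorem sup_eq_of_ppow {G : Type*} [Group G] [Finite G] {p : ℕ} [Fact p.Prime]
    (A B : Subgroup G) [B.Normal] (hAB : A ≤ B) (m : ℕ) (hpow : A.relIndex B = p ^ m)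
    (Q : Sylow p G) : A ⊔ (Q : Subgroup G) = B ⊔ (Q : Subgroup G) := by
  apply le_antisymm (sup_le_sup_right hAB _)
  apply sup_le _ le_sup_right
  set E : Subgroup G := (A ⊔ (Q : Subgroup G)) ⊓ B with hE
  have h1 : E.relIndex B ∣ A.relIndex B :=
    Subgroup.relIndex_dvd_of_le_left B (le_inf le_sup_left hAB)
  have h2 : E.relIndex B ∣ (Q : Subgroup G).relIndex B := by
    rw [← Subgroup.inf_relIndex_right (Q : Subgroup G) B]
    exact Subgroup.relIndex_dvd_of_le_left B (le_inf (inf_le_left.trans le_sup_right) inf_le_right)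
  have h3 : ¬ p ∣ (Q : Subgroup G).relIndex B :=
    not_dvd_relIndex_of_isSubnormal p (Subgroup.Normal.isSubnormal inferInstance) Q
  rw [hpow] at h1
  obtain ⟨j, -, hj⟩ := (Nat.dvd_prime_pow Fact.out).mp h1
  have hj0 : j = 0 := by
    by_contra hne
    apply h3
    refine dvd_trans ?_ h2
    rw [hj]; exact dvd_pow_self p hne
  rw [hj0, pow_zero] at hj
  exact (Subgroup.relIndex_eq_one.mp hj).trans inf_le_left

theorem card_sup_sylow {G : Type*} [Group G] [Finite G] {p : ℕ} (N : Subgroup G) [N.Normal]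
    (P : Sylow p G) :
    Nat.card (N ⊔ (P : Subgroup G) : Subgroup G) = Nat.card N * N.relIndex (P : Subgroup G) := by
  rw [← Subgroup.relIndex_sup_left (P : Subgroup G) N, ← Subgroup.relIndex_bot_left,
    ← Subgroup.relIndex_bot_left, Subgroup.relIndex_mul_relIndex _ _ _ bot_le le_sup_left]

theorem card_dvd_card_centMod {G : Type*} [Group G] [Finite G] (H A B : Subgroup G) [A.Normal]
    (hAB : A ≤ B) :
    Nat.card A ∣ Nat.card {u : G // u ∈ B ∧ ∀ h ∈ H, h * u * h⁻¹ * u⁻¹ ∈ A} := by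
  have hAn : A.Normal := inferInstance
  let C : Subgroup G :=
    { carrier := {u | u ∈ B ∧ ∀ h ∈ H, h * u * h⁻¹ * u⁻¹ ∈ A}
      one_mem' := ⟨B.one_mem, fun h _ => by simp⟩
      mul_mem' := by
        rintro u v ⟨hu, hu'⟩ ⟨hv, hv'⟩
        refine ⟨B.mul_mem hu hv, fun h hh => ?_⟩
        have e : h * (u * v) * h⁻¹ * (u * v)⁻¹ =
            (h * u * h⁻¹ * u⁻¹) * (u * (h * v * h⁻¹ * v⁻¹) * u⁻¹) := by group
        rw [e]
        exact A.mul_mem (hu' h hh) (hAn.conj_mem _ (hv' h hh) u)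
      inv_mem' := by
        rintro u ⟨hu, hu'⟩
        refine ⟨B.inv_mem hu, fun h hh => ?_⟩
        have e : h * u⁻¹ * h⁻¹ * u⁻¹⁻¹ = u⁻¹ * (h * u * h⁻¹ * u⁻¹)⁻¹ * u⁻¹⁻¹ := by group
        rw [e]
        exact hAn.conj_mem _ (A.inv_mem (hu' h hh)) u⁻¹ }
  have hAC : A ≤ C := fun a ha =>
    ⟨hAB ha, fun h _ => A.mul_mem (hAn.conj_mem a ha h) (A.inv_mem ha)⟩
  exact Subgroup.card_dvd_of_le hAC

/-- The count along a normal chain with `p`- and `p'`-factors. -/
theorem card_Sg_chain {G : Type*} [Group G] [Finite G] {p : ℕ} [Fact p.Prime] (H : Subgroup G)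
    (hH : IsPGroup p H) (P : Sylow p G) :
    ∀ (n : ℕ) (M : Fin (n + 1) → Subgroup G), M (Fin.last n) = ⊤ → Monotone M →
      (∀ i, (M i).Normal) →
      (∀ i : Fin n, (∃ m : ℕ, (M i.castSucc).relIndex (M i.succ) = p ^ m) ∨
        ((M i.castSucc).relIndex (M i.succ)).Coprime p) →
      Nat.card (Sg H P (M 0)) = Nat.card (M 0 ⊔ (P : Subgroup G) : Subgroup G) *
        ∏ i : Fin n, (if ((M i.castSucc).relIndex (M i.succ)).Coprime p then
          Nat.card {u : G // u ∈ M i.succ ∧ ∀ h ∈ H, h * u * h⁻¹ * u⁻¹ ∈ M i.castSucc} /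
            Nat.card (M i.castSucc)
          else 1) := by
  intro n
  induction n with
  | zero =>
    intro M hlast _ _ _
    have h0 : M 0 = ⊤ := hlast
    rw [h0]
    have h1 : Sg H P (⊤ : Subgroup G) = Set.univ := by
      ext y; simp [Sg]
    rw [h1, top_sup_eq]
    simp
  | succ n ih =>
    intro M hlast hmono hnormal hfac
    have ih' := ih (fun i => M i.succ) (by simpa using hlast)
      (fun i j hij => hmono (Fin.succ_le_succ_iff.mpr hij)) (fun i => hnormal i.succ)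
      (fun i => hfac i.succ)
    rw [Fin.prod_univ_succ]
    have e0 : M 0 = M (Fin.castSucc (0 : Fin (n + 1))) := rfl
    rw [e0]
    have hf0 := hfac 0
    have hA : (M (Fin.castSucc (0 : Fin (n + 1)))).Normal := hnormal _
    have hB : (M (Fin.succ (0 : Fin (n + 1)))).Normal := hnormal _
    have hAB : M (Fin.castSucc (0 : Fin (n + 1))) ≤ M (Fin.succ (0 : Fin (n + 1))) :=
      hmono (Fin.zero_le _)
    have hB1 : Nat.card (Sg H P (M (Fin.succ (0 : Fin (n + 1))))) =
        Nat.card (M (Fin.succ (0 : Fin (n + 1))) ⊔ (P : Subgroup G) : Subgroup G) *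
        ∏ i : Fin n, (if ((M i.succ.castSucc).relIndex (M i.succ.succ)).Coprime p then
          Nat.card {u : G // u ∈ M i.succ.succ ∧ ∀ h ∈ H, h * u * h⁻¹ * u⁻¹ ∈ M i.succ.castSucc} /
            Nat.card (M i.succ.castSucc)
          else 1) := ih'
    set Pr := ∏ i : Fin n, (if ((M i.succ.castSucc).relIndex (M i.succ.succ)).Coprime p then
          Nat.card {u : G // u ∈ M i.succ.succ ∧ ∀ h ∈ H, h * u * h⁻¹ * u⁻¹ ∈ M i.succ.castSucc} /
            Nat.card (M i.succ.castSucc)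
          else 1) with hPr
    set A := M (Fin.castSucc (0 : Fin (n + 1))) with hAdef
    set B := M (Fin.succ (0 : Fin (n + 1))) with hBdef
    by_cases hco : (A.relIndex B).Coprime p
    · rw [if_pos hco]
      have h1 := card_Sg_pprime H hH P A B hAB hco
      have h2 := card_dvd_card_centMod H A B hAB
      set D := Nat.card {u : G // u ∈ B ∧ ∀ h ∈ H, h * u * h⁻¹ * u⁻¹ ∈ A} with hD
      have hr : B.relIndex (P : Subgroup G) = A.relIndex (P : Subgroup G) := by
        rw [← Subgroup.inf_relIndex_right B, ← Subgroup.inf_relIndex_right A]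
        congr 1
        apply le_antisymm
        · intro x hx
          obtain ⟨k, hk⟩ := (IsPGroup.iff_orderOf.mp P.isPGroup') ⟨x, hx.2⟩
          rw [← Subgroup.orderOf_coe] at hk
          exact ⟨mem_of_coprime_relIndex A B hco x hx.1 k hk, hx.2⟩
        · exact inf_le_inf_right _ hAB
      rw [hB1, card_sup_sylow B P, hr] at h1
      rw [card_sup_sylow A P]
      have hBpos : 0 < Nat.card B := Nat.card_pos
      have h3 : Nat.card (Sg H P A) * Nat.card B =
          (A.relIndex (P : Subgroup G) * Pr * D) * Nat.card B := by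
        rw [h1]; ring
      have h4 := Nat.eq_of_mul_eq_mul_right hBpos h3
      rw [h4]
      obtain ⟨d, hd⟩ := h2
      have hApos : 0 < Nat.card A := Nat.card_pos
      rw [hd, Nat.mul_div_cancel_left d hApos]
      ring
    · rw [if_neg hco, one_mul]
      rcases hf0 with ⟨m, hm⟩ | h
      · have hsup : ∀ Q : Sylow p G, A ⊔ (Q : Subgroup G) = B ⊔ (Q : Subgroup G) :=
          fun Q => sup_eq_of_ppow A B hAB m hm Q
        have hSg : Sg H P A = Sg H P B := by
          ext y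
          rw [mem_Sg, mem_Sg, hsup]
        rw [hSg, hsup P, hB1]
      · exact absurd h hco

/-- The conjugates of a Sylow subgroup containing `H`, counted by conjugating elements. -/
theorem card_conj_sylow_ge {G : Type*} [Group G] [Finite G] {p : ℕ} [Fact p.Prime]
    (H : Subgroup G) (P : Sylow p G) :
    Nat.card {y : G // H ≤ ((y • P : Sylow p G) : Subgroup G)} =
      Nat.card {Q : Sylow p G // H ≤ (Q : Subgroup G)} *
        Nat.card (Subgroup.normalizer ((P : Subgroup G) : Set G)) := by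
  apply card_eq_mul_of_fibers
    (fun y : {y : G // H ≤ ((y • P : Sylow p G) : Subgroup G)} =>
      (⟨y.1 • P, y.2⟩ : {Q : Sylow p G // H ≤ (Q : Subgroup G)}))
  intro Q
  obtain ⟨y₀, hy₀⟩ := MulAction.exists_smul_eq G P Q.1
  rw [← card_of_left_coset (Subgroup.normalizer ((P : Subgroup G) : Set G))
    {y : G | y • P = Q.1} y₀ ?_]
  · refine Nat.card_congr
      { toFun := fun a => ⟨a.1.1, congrArg Subtype.val a.2⟩
        invFun := fun x => ⟨⟨x.1, by
          have := x.2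
          simp only [Set.mem_ofPred_eq] at this
          rw [this]; exact Q.2⟩, Subtype.ext x.2⟩
        left_inv := fun a => rfl
        right_inv := fun x => rfl }
  · intro x
    simp only [Set.mem_ofPred_eq]
    have h6 : y₀⁻¹ * x ∈ Subgroup.normalizer ((P : Subgroup G) : Set G) ↔
        (y₀⁻¹ * x) • P = P := Sylow.smul_eq_iff_mem_normalizer.symm
    rw [h6, mul_smul, inv_smul_eq_iff, hy₀]

/-- Casolo's count, in the form used for `p`-solvable groups. -/
theorem card_subnormalizer_eq_card_Sg {G : Type*} [Group G] [Finite G] {p : ℕ} [Fact p.Prime]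
    (H : Subgroup G) (hH : IsPGroup p H) (P : Sylow p G) :
    Nat.card {g : G // (H.subgroupOf (H ⊔ Subgroup.zpowers g)).IsSubnormal} =
      Nat.card (Sg H P ⊥) := by
  have h1 : Nat.card {g : G // (H.subgroupOf (H ⊔ Subgroup.zpowers g)).IsSubnormal} =
      Nat.card (SP p H) := by
    rw [← casolo_aux p (Nat.card G) G rfl H]
    exact Nat.card_congr (Equiv.subtypeEquivRight (fun g => subnormalizer_iff p H hH g))
  have h2 : Nat.card (SP p H) =
      Nat.card {Q : Sylow p G // H ≤ (Q : Subgroup G)} *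
        Nat.card (Subgroup.normalizer ((P : Subgroup G) : Set G)) := by
    have h3 := card_SP (p := p) H
    have h4 := card_normalizer_mul_card_sylow P
    have h5 : Nat.card {Q : Sylow p G | H ≤ (Q : Subgroup G)} =
        Nat.card {Q : Sylow p G // H ≤ (Q : Subgroup G)} := rfl
    rw [h5, ← h4, ← mul_assoc] at h3
    exact Nat.eq_of_mul_eq_mul_right Nat.card_pos h3
  rw [h1, h2, ← card_conj_sylow_ge H P]
  refine Nat.card_congr (Equiv.subtypeEquivRight (fun y => ?_))
  rw [mem_Sg, bot_sup_eq]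

end Cfsg.Agent.H72
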