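import Mathlib
import Cfsg.Agent.H44.SpLDefs

/-!
# S2333 (helper44's project): basic facts on `sympForm`, `kap` in characteristic 2 (helper72).
-/

set_option autoImplicit false

namespace Cfsg.Agent.H72.SpL

open Cfsg.Agent.H44.SpL

universe u

variable {F : Type u} [Field F] (m : ℕ)

theorem sf_eq (a b : Fin m ⊕ Fin m → F) :
    Cfsg.sympForm m F a b =
      ∑ i, (a (Sum.inr i) * b (Sum.inl i) - a (Sum.inl i) * b (Sum.inr i)) := by
  unfold Cfsg.sympForm
  simp only [dotProduct, Fintype.sum_sum_type, Matrix.J, Matrix.mulVec, Matrix.fromBlocks_apply₁₁,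
    Matrix.fromBlocks_apply₁₂, Matrix.fromBlocks_apply₂₁, Matrix.fromBlocks_apply₂₂,
    Matrix.zero_apply, Matrix.neg_apply, Matrix.one_apply, zero_mul, neg_mul, ite_mul, one_mul,
    Finset.sum_const_zero, zero_add, add_zero, Finset.sum_neg_distrib, Finset.sum_ite_eq,
    Finset.mem_univ, if_true, mul_neg]
  rw [Finset.sum_sub_distrib]
  ring

theorem sf_add_left (a a' b : Fin m ⊕ Fin m → F) :
    Cfsg.sympForm m F (a + a') b = Cfsg.sympForm m F a b + Cfsg.sympForm m F a' b := by
  simp only [sf_eq, Pi.add_apply, ← Finset.sum_add_distrib]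
  exact Finset.sum_congr rfl fun i _ => by ring

theorem sf_add_right (a b b' : Fin m ⊕ Fin m → F) :
    Cfsg.sympForm m F a (b + b') = Cfsg.sympForm m F a b + Cfsg.sympForm m F a b' := by
  simp only [sf_eq, Pi.add_apply, ← Finset.sum_add_distrib]
  exact Finset.sum_congr rfl fun i _ => by ring

theorem sf_smul_left (c : F) (a b : Fin m ⊕ Fin m → F) :
    Cfsg.sympForm m F (c • a) b = c * Cfsg.sympForm m F a b := by
  simp only [sf_eq, Pi.smul_apply, smul_eq_mul, Finset.mul_sum]
  exact Finset.sum_congr rfl fun i _ => by ring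

theorem sf_smul_right (c : F) (a b : Fin m ⊕ Fin m → F) :
    Cfsg.sympForm m F a (c • b) = c * Cfsg.sympForm m F a b := by
  simp only [sf_eq, Pi.smul_apply, smul_eq_mul, Finset.mul_sum]
  exact Finset.sum_congr rfl fun i _ => by ring

theorem sf_self (a : Fin m ⊕ Fin m → F) : Cfsg.sympForm m F a a = 0 := by
  simp only [sf_eq]
  exact Finset.sum_eq_zero fun i _ => by ring

theorem sf_zero_left (b : Fin m ⊕ Fin m → F) : Cfsg.sympForm m F 0 b = 0 := by
  simp [sf_eq]

theorem sf_zero_right (a : Fin m ⊕ Fin m → F) : Cfsg.sympForm m F a 0 = 0 := by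
  simp [sf_eq]

theorem neg_eq_self' (h2 : (2 : F) = 0) (x : F) : -x = x := by
  have : x + x = 0 := by
    have : x + x = 2 * x := by ring
    rw [this, h2, zero_mul]
  exact neg_eq_of_add_eq_zero_left this

theorem sub_eq_add' (h2 : (2 : F) = 0) (x y : F) : x - y = x + y := by
  rw [sub_eq_add_neg, neg_eq_self' h2]

theorem add_self' (h2 : (2 : F) = 0) (x : F) : x + x = 0 := by
  have : x + x = 2 * x := by ring
  rw [this, h2, zero_mul]

theorem sf_comm (h2 : (2 : F) = 0) (a b : Fin m ⊕ Fin m → F) :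
    Cfsg.sympForm m F a b = Cfsg.sympForm m F b a := by
  simp only [sf_eq]
  refine Finset.sum_congr rfl fun i _ => ?_
  rw [sub_eq_add' h2, sub_eq_add' h2]
  ring

theorem kap_add (h2 : (2 : F) = 0) (a b : Fin m ⊕ Fin m → F) :
    kap m (a + b) = kap m a + kap m b + Cfsg.sympForm m F a b := by
  simp only [kap, sf_eq, Pi.add_apply, ← Finset.sum_add_distrib]
  refine Finset.sum_congr rfl fun i _ => ?_
  rw [sub_eq_add' h2]
  ring

theorem kap_smul (c : F) (a : Fin m ⊕ Fin m → F) : kap m (c • a) = c ^ 2 * kap m a := by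
  simp only [kap, Pi.smul_apply, smul_eq_mul, Finset.mul_sum]
  exact Finset.sum_congr rfl fun i _ => by ring

theorem kap_zero : kap m (0 : Fin m ⊕ Fin m → F) = 0 := by
  simp [kap]

theorem sq_add' (h2 : (2 : F) = 0) (x y : F) : (x + y) ^ 2 = x ^ 2 + y ^ 2 := by
  have : (x + y) ^ 2 = x ^ 2 + y ^ 2 + 2 * (x * y) := by ring
  rw [this, h2, zero_mul, add_zero]

theorem sq_inj' (h2 : (2 : F) = 0) {x y : F} (h : x ^ 2 = y ^ 2) : x = y := by
  have h1 : (x + y) ^ 2 = 0 := by rw [sq_add' h2, h, add_self' h2]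
  have h3 : x + y = 0 := by simpa using h1
  have : x = -y := eq_neg_of_add_eq_zero_left h3
  rw [this, neg_eq_self' h2]

theorem exists_sqrt [Finite F] (h2 : (2 : F) = 0) (s : F) : ∃ r : F, r ^ 2 = s := by
  have hinj : Function.Injective (fun x : F => x ^ 2) := fun x y h => sq_inj' h2 h
  exact (Finite.injective_iff_surjective.mp hinj) s

example (h2 : (2 : F) = 0) (a b : Fin m ⊕ Fin m → F) :
    kap m (a + b) = kap m a + kap m b + Cfsg.sympForm m F a b := kap_add m h2 a b

end Cfsg.Agent.H72.SpL
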