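import Mathlib
import Cfsg.Agent.H44.SpLDefs
import Cfsg.Agent.H72.SpLBase

/-!
# S2333 (helper44's project): piece SPL-B1 (helper72).
-/

set_option autoImplicit false

namespace Cfsg.Agent.H72.SpL

open Cfsg.Agent.H44.SpL

universe u

theorem b1 : StB1.{u} := by
  intro F _ _ m h2 i j hij X hT w s hs hw
  classical
  obtain ⟨r, hr⟩ := exists_sqrt h2 s
  have hr0 : r ≠ 0 := by
    rintro rfl
    apply hs
    rw [← hr]; ring
  have hb : ∀ x y k : F, k ^ 2 = x * y →
      (w (Sum.inl i) + y * w (Sum.inl j) + x * w (Sum.inr j)) + r * (k + 1) = w (Sum.inr i) →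
      ∃ w' : Fin m ⊕ Fin m → F, (w', s) ∈ X ∧ w' (Sum.inr i) = 0 := by
    intro x y k hk hcoef
    set b : Fin m ⊕ Fin m → F :=
      Pi.single (Sum.inr i) 1 + x • Pi.single (Sum.inl j) 1 + y • Pi.single (Sum.inr j) 1 with hbdef
    have hbl : ∀ l, b (Sum.inl l) = if l = j then x else 0 := by
      intro l
      simp only [hbdef, Pi.add_apply, Pi.smul_apply, Pi.single_apply, smul_eq_mul,
        reduceCtorEq, if_false, Sum.inl.injEq, mul_zero, add_zero, zero_add, mul_ite, mul_one]
    have hbr : ∀ l, b (Sum.inr l) = (if l = i then 1 else 0) + (if l = j then y else 0) := by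
      intro l
      simp only [hbdef, Pi.add_apply, Pi.smul_apply, Pi.single_apply, smul_eq_mul,
        reduceCtorEq, if_false, Sum.inr.injEq, mul_zero, add_zero, mul_ite, mul_one]
    have hkap : kap m b = x * y := by
      unfold kap
      rw [Finset.sum_eq_single j]
      · rw [hbl, hbr, if_pos rfl, if_neg (Ne.symm hij), if_pos rfl, zero_add]
      · intro l _ hl
        rw [hbl, if_neg hl, zero_mul]
      · intro h; exact absurd (Finset.mem_univ j) h
    have hf : Cfsg.sympForm m F b w =
        w (Sum.inl i) + y * w (Sum.inl j) + x * w (Sum.inr j) := by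
      rw [sf_eq]
      simp only [hbl, hbr, add_mul, ite_mul, one_mul, zero_mul, Finset.sum_sub_distrib,
        Finset.sum_add_distrib, Finset.sum_ite_eq', Finset.mem_univ, if_true]
      rw [sub_eq_add' h2]
    have key := hT w b s r k hw hr (by rw [hkap]; exact hk)
    rw [hf, hcoef] at key
    refine ⟨_, key, ?_⟩
    rw [Pi.add_apply, Pi.smul_apply, hbr, if_pos rfl, if_neg hij, add_zero, smul_eq_mul, mul_one]
    exact add_self' h2 _
  by_cases hj : w (Sum.inl j) = 0
  · refine hb 1 (((w (Sum.inr i) + w (Sum.inl i) + w (Sum.inr j)) / r + 1) ^ 2)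
      ((w (Sum.inr i) + w (Sum.inl i) + w (Sum.inr j)) / r + 1) (by ring) ?_
    rw [hj]
    have e1 : r * ((w (Sum.inr i) + w (Sum.inl i) + w (Sum.inr j)) / r + 1 + 1) =
        w (Sum.inr i) + w (Sum.inl i) + w (Sum.inr j) + r * 2 := by
      field_simp
      ring
    rw [e1, h2]
    linear_combination (w (Sum.inl i) + w (Sum.inr j)) * h2
  · refine hb 0 ((w (Sum.inr i) + r + w (Sum.inl i)) / w (Sum.inl j)) 0 (by ring) ?_
    have e1 : (w (Sum.inr i) + r + w (Sum.inl i)) / w (Sum.inl j) * w (Sum.inl j) =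
        w (Sum.inr i) + r + w (Sum.inl i) := by
      field_simp
    rw [e1]
    linear_combination (w (Sum.inl i) + r) * h2

example : StB1.{u} := b1

end Cfsg.Agent.H72.SpL
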