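import Mathlib
import Cfsg.Agent.H44.SpLDefs
import Cfsg.Agent.H72.SpLBase

/-!
# S2333 (helper44's project): coordinates on `F^{2(m+1)}` and the action of `yel` (helper72).
-/

set_option autoImplicit false

namespace Cfsg.Agent.H72.SpL

open Matrix Cfsg.Agent.H17 Cfsg.Agent.H44.SpL

universe u

set_option linter.unusedSectionVars false

variable {F : Type u} [Field F] (m : ℕ)

/-- Restriction of a vector of `F^{2(m+1)}` to the coordinates `inl i.succ`, `inr i.succ`. -/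
def prj (x : Fin (m + 1) ⊕ Fin (m + 1) → F) : Fin m ⊕ Fin m → F :=
  Sum.elim (fun i => x (Sum.inl i.succ)) (fun i => x (Sum.inr i.succ))

theorem prj_inl (x : Fin (m + 1) ⊕ Fin (m + 1) → F) (i : Fin m) :
    prj m x (Sum.inl i) = x (Sum.inl i.succ) := rfl

theorem prj_inr (x : Fin (m + 1) ⊕ Fin (m + 1) → F) (i : Fin m) :
    prj m x (Sum.inr i) = x (Sum.inr i.succ) := rfl

theorem prj_add (x y : Fin (m + 1) ⊕ Fin (m + 1) → F) : prj m (x + y) = prj m x + prj m y := by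
  ext k; rcases k with i | i <;> rfl

theorem prj_smul (c : F) (x : Fin (m + 1) ⊕ Fin (m + 1) → F) : prj m (c • x) = c • prj m x := by
  ext k; rcases k with i | i <;> rfl

theorem embW_inl_zero (a : Fin m ⊕ Fin m → F) : embW m a (Sum.inl 0) = 0 := rfl

theorem embW_inr_zero (a : Fin m ⊕ Fin m → F) : embW m a (Sum.inr 0) = 0 := rfl

theorem embW_inl_succ (a : Fin m ⊕ Fin m → F) (i : Fin m) :
    embW m a (Sum.inl i.succ) = a (Sum.inl i) := rfl

theorem embW_inr_succ (a : Fin m ⊕ Fin m → F) (i : Fin m) :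
    embW m a (Sum.inr i.succ) = a (Sum.inr i) := rfl

theorem prj_embW (a : Fin m ⊕ Fin m → F) : prj m (embW m a) = a := by
  ext k; rcases k with i | i <;> rfl

theorem vec_ext {x y : Fin (m + 1) ⊕ Fin (m + 1) → F} (h : prj m x = prj m y)
    (hl : x (Sum.inl 0) = y (Sum.inl 0)) (hr : x (Sum.inr 0) = y (Sum.inr 0)) : x = y := by
  ext k
  rcases k with i | i
  · refine Fin.cases hl (fun j => ?_) i
    exact congrFun h (Sum.inl j)
  · refine Fin.cases hr (fun j => ?_) i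
    exact congrFun h (Sum.inr j)

theorem e0_inl_zero : e0 F m (Sum.inl 0) = 1 := by simp [e0]

theorem e0_inr_zero : e0 F m (Sum.inr 0) = 0 := by simp [e0]

theorem prj_e0 : prj m (e0 F m) = 0 := by
  ext k
  rcases k with i | i
  · simp [prj, e0, Fin.succ_ne_zero]
  · simp [prj, e0]

theorem embW_add (a b : Fin m ⊕ Fin m → F) : embW m (a + b) = embW m a + embW m b := by
  apply vec_ext
  · rw [prj_add, prj_embW, prj_embW, prj_embW]
  · simp [embW_inl_zero]
  · simp [embW_inr_zero]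

theorem embW_smul (c : F) (a : Fin m ⊕ Fin m → F) : embW m (c • a) = c • embW m a := by
  apply vec_ext
  · rw [prj_smul, prj_embW, prj_embW]
  · simp [embW_inl_zero]
  · simp [embW_inr_zero]

/-- The form on `F^{2(m+1)}` in terms of the form on `F^{2m}`. -/
theorem sf_succ (x y : Fin (m + 1) ⊕ Fin (m + 1) → F) :
    Cfsg.sympForm (m + 1) F x y = Cfsg.sympForm m F (prj m x) (prj m y) +
      (x (Sum.inr 0) * y (Sum.inl 0) - x (Sum.inl 0) * y (Sum.inr 0)) := by
  rw [sf_eq, sf_eq, Fin.sum_univ_succ]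
  simp only [prj_inl, prj_inr]
  ring

theorem sf_x_e0 (x : Fin (m + 1) ⊕ Fin (m + 1) → F) :
    Cfsg.sympForm (m + 1) F x (e0 F m) = x (Sum.inr 0) := by
  rw [sf_succ, prj_e0, sf_zero_right, e0_inl_zero, e0_inr_zero]
  ring

theorem sf_x_embW (x : Fin (m + 1) ⊕ Fin (m + 1) → F) (a : Fin m ⊕ Fin m → F) :
    Cfsg.sympForm (m + 1) F x (embW m a) = Cfsg.sympForm m F (prj m x) a := by
  rw [sf_succ, prj_embW, embW_inl_zero, embW_inr_zero]
  ring

theorem spTransv_mulVec (n : ℕ) (v : Fin n ⊕ Fin n → F) (c : F) (x : Fin n ⊕ Fin n → F) :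
    ((spTransv n v c : Matrix.symplecticGroup (Fin n) F) :
      Matrix (Fin n ⊕ Fin n) (Fin n ⊕ Fin n) F) *ᵥ x =
      x + (c * Cfsg.sympForm n F x v) • v :=
  sympTransvection_mulVec n v c x

/-- The three "coordinates" of `yel (a, c) x`. -/
theorem yel_mulVec (h2 : (2 : F) = 0) (a : Fin m ⊕ Fin m → F) (c : F)
    (x : Fin (m + 1) ⊕ Fin (m + 1) → F) :
    ((yel m (a, c) : Matrix.symplecticGroup (Fin (m + 1)) F) :
      Matrix (Fin (m + 1) ⊕ Fin (m + 1)) (Fin (m + 1) ⊕ Fin (m + 1)) F) *ᵥ x =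
      x + x (Sum.inr 0) • (embW m a + (c + kap m a) • e0 F m) +
        Cfsg.sympForm m F (prj m x) a • e0 F m := by
  unfold yel
  rw [Submonoid.coe_mul, Submonoid.coe_mul, ← Matrix.mulVec_mulVec, ← Matrix.mulVec_mulVec,
    spTransv_mulVec, spTransv_mulVec, spTransv_mulVec]
  simp only [sf_add_left, sf_add_right, sf_smul_left, sf_x_e0, sf_x_embW,
    prj_embW, prj_e0, prj_add, prj_smul, sf_self, sf_zero_left, e0_inr_zero,
    Pi.add_apply, Pi.smul_apply, smul_eq_mul, mul_zero, add_zero,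
    one_mul, mul_one]
  ext k
  simp only [Pi.add_apply, Pi.smul_apply, smul_eq_mul]
  linear_combination (x (Sum.inr 0) * e0 F m k + Cfsg.sympForm m F (prj m x) a * embW m a k) * h2

/-- The three coordinates of `yel (a, c) x`. -/
theorem yel_prj (h2 : (2 : F) = 0) (a : Fin m ⊕ Fin m → F) (c : F)
    (x : Fin (m + 1) ⊕ Fin (m + 1) → F) :
    prj m (((yel m (a, c) : Matrix.symplecticGroup (Fin (m + 1)) F) :
      Matrix (Fin (m + 1) ⊕ Fin (m + 1)) (Fin (m + 1) ⊕ Fin (m + 1)) F) *ᵥ x) =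
      prj m x + x (Sum.inr 0) • a := by
  rw [yel_mulVec m h2]
  simp only [prj_add, prj_smul, prj_embW, prj_e0, smul_zero, add_zero]

theorem yel_inl (h2 : (2 : F) = 0) (a : Fin m ⊕ Fin m → F) (c : F)
    (x : Fin (m + 1) ⊕ Fin (m + 1) → F) :
    (((yel m (a, c) : Matrix.symplecticGroup (Fin (m + 1)) F) :
      Matrix (Fin (m + 1) ⊕ Fin (m + 1)) (Fin (m + 1) ⊕ Fin (m + 1)) F) *ᵥ x) (Sum.inl 0) =
      x (Sum.inl 0) + x (Sum.inr 0) * (c + kap m a) + Cfsg.sympForm m F (prj m x) a := by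
  rw [yel_mulVec m h2]
  simp only [Pi.add_apply, Pi.smul_apply, smul_eq_mul, embW_inl_zero, e0_inl_zero, mul_one,
    zero_add]

theorem yel_inr (h2 : (2 : F) = 0) (a : Fin m ⊕ Fin m → F) (c : F)
    (x : Fin (m + 1) ⊕ Fin (m + 1) → F) :
    (((yel m (a, c) : Matrix.symplecticGroup (Fin (m + 1)) F) :
      Matrix (Fin (m + 1) ⊕ Fin (m + 1)) (Fin (m + 1) ⊕ Fin (m + 1)) F) *ᵥ x) (Sum.inr 0) =
      x (Sum.inr 0) := by
  rw [yel_mulVec m h2]
  simp only [Pi.add_apply, Pi.smul_apply, smul_eq_mul, embW_inr_zero, e0_inr_zero, mul_zero,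
    add_zero]

end Cfsg.Agent.H72.SpL
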