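import Mathlib
import Cfsg.Agent.H44.SpLDefs
import Cfsg.Agent.H72.SpLBase
import Cfsg.Agent.H72.SpLYel

/-!
# S2333 (helper44's project): piece SPL-B3 (helper72).
-/

set_option autoImplicit false

namespace Cfsg.Agent.H72.SpL

open Matrix Cfsg.Agent.H17 Cfsg.Agent.H44.SpL

universe u v

/-- Conjugating a transvection (product form). -/
theorem tv_conj {F : Type u} [Field F] (n : ℕ) (A : Matrix.symplecticGroup (Fin n) F)
    (v : Fin n ⊕ Fin n → F) (c : F) :
    A * spTransv n v c =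
      spTransv n ((A : Matrix (Fin n ⊕ Fin n) (Fin n ⊕ Fin n) F) *ᵥ v) c * A := by
  apply Subtype.ext
  apply matrix_ext_mulVec
  intro x
  rw [Submonoid.coe_mul, Submonoid.coe_mul, ← Matrix.mulVec_mulVec, ← Matrix.mulVec_mulVec,
    spTransv_mulVec, spTransv_mulVec, Matrix.mulVec_add, Matrix.mulVec_smul, sp_form]

theorem embW_single_inl {F : Type u} [Field F] (m : ℕ) (i : Fin m) :
    embW m (Pi.single (Sum.inl i) (1 : F)) = Pi.single (Sum.inl i.succ) 1 := by
  classical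
  apply vec_ext
  · rw [prj_embW]
    ext k
    rcases k with j | j
    · rw [prj_inl]
      simp [Pi.single_apply]
    · rw [prj_inr]
      simp
  · rw [embW_inl_zero]
    simp [Fin.succ_ne_zero]
  · rw [embW_inr_zero]
    simp

theorem b3 : StB3.{u, v} := by
  intro F _ m i V _ _ _ ρ hex
  obtain ⟨u, hu1, c0, hu2⟩ := hex
  classical
  let σ : Equiv.Perm (Fin (m + 1)) := Equiv.swap 0 i.succ
  let π : Equiv.Perm (Fin (m + 1) ⊕ Fin (m + 1)) := Equiv.sumCongr σ σ
  have hπl : ∀ j, π (Sum.inl j) = Sum.inl (σ j) := fun j => rfl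
  have hπr : ∀ j, π (Sum.inr j) = Sum.inr (σ j) := fun j => rfl
  have hinv : ∀ k, π (π k) = k := by
    intro k
    rcases k with j | j
    · rw [hπl, hπl]; simp [σ]
    · rw [hπr, hπr]; simp [σ]
  have hmul : ∀ x : Fin (m + 1) ⊕ Fin (m + 1) → F, (π.permMatrix F) *ᵥ x = x ∘ π :=
    fun x => Matrix.permMatrix_mulVec π
  have hmem : π.permMatrix F ∈ Matrix.symplecticGroup (Fin (m + 1)) F := by
    rw [mem_symplecticGroup_iff_form]
    intro x y
    rw [hmul, hmul, sf_eq, sf_eq]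
    simp only [Function.comp, hπl, hπr]
    exact Equiv.sum_comp σ
      (fun j => x (Sum.inr j) * y (Sum.inl j) - x (Sum.inl j) * y (Sum.inr j))
  let g : Matrix.symplecticGroup (Fin (m + 1)) F := ⟨π.permMatrix F, hmem⟩
  have hcomp : ∀ a : Fin (m + 1) ⊕ Fin (m + 1),
      (π.permMatrix F) *ᵥ (Pi.single a (1 : F)) = Pi.single (π a) 1 := by
    intro a
    rw [hmul]
    ext k
    simp only [Function.comp, Pi.single_apply]
    have : π k = a ↔ k = π a := by
      constructor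
      · intro h; rw [← h, hinv]
      · intro h; rw [h, hinv]
    simp only [this]
  have hg0 : (g : Matrix (Fin (m + 1) ⊕ Fin (m + 1)) (Fin (m + 1) ⊕ Fin (m + 1)) F) *ᵥ e0 F m =
      embW m (Pi.single (Sum.inl i) 1) := by
    rw [embW_single_inl]
    show (π.permMatrix F) *ᵥ (Pi.single (Sum.inl 0) (1 : F)) = _
    rw [hcomp, hπl]
    simp [σ]
  have hgi : (g : Matrix (Fin (m + 1) ⊕ Fin (m + 1)) (Fin (m + 1) ⊕ Fin (m + 1)) F) *ᵥ
      embW m (Pi.single (Sum.inl i) 1) = e0 F m := by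
    rw [embW_single_inl]
    show (π.permMatrix F) *ᵥ (Pi.single (Sum.inl i.succ) (1 : F)) = Pi.single (Sum.inl 0) 1
    rw [hcomp, hπl]
    simp [σ]
  have h1 : ∀ c, g * spTransv (m + 1) (e0 F m) c =
      spTransv (m + 1) (embW m (Pi.single (Sum.inl i) 1)) c * g := by
    intro c
    rw [tv_conj, hg0]
  have h2 : ∀ c, g * spTransv (m + 1) (embW m (Pi.single (Sum.inl i) 1)) c =
      spTransv (m + 1) (e0 F m) c * g := by
    intro c
    rw [tv_conj, hgi]
  refine ⟨ρ g u, ?_, c0, ?_⟩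
  · intro c
    have e1 : ρ (spTransv (m + 1) (e0 F m) c) (ρ g u) =
        ρ (spTransv (m + 1) (e0 F m) c * g) u := by rw [map_mul]; rfl
    rw [e1, ← h2 c, map_mul, Module.End.mul_apply, hu1 c]
  · intro h
    apply hu2
    have e1 : ρ (spTransv (m + 1) (embW m (Pi.single (Sum.inl i) 1)) c0) (ρ g u) =
        ρ g (ρ (spTransv (m + 1) (e0 F m) c0) u) := by
      have : ρ (spTransv (m + 1) (embW m (Pi.single (Sum.inl i) 1)) c0) (ρ g u) =
          ρ (spTransv (m + 1) (embW m (Pi.single (Sum.inl i) 1)) c0 * g) u := by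
        rw [map_mul]; rfl
      rw [this, ← h1 c0, map_mul]; rfl
    rw [e1] at h
    have e2 : ∀ z : V, ρ g⁻¹ (ρ g z) = z := by
      intro z
      have : ρ g⁻¹ (ρ g z) = ρ (g⁻¹ * g) z := by rw [map_mul]; rfl
      rw [this, inv_mul_cancel, map_one]; rfl
    rw [← e2 (ρ (spTransv (m + 1) (e0 F m) c0) u), h, e2]

example : StB3.{u, v} := b3

end Cfsg.Agent.H72.SpL
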