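import Mathlib
import Cfsg.Agent.H44.SpLDefs
import Cfsg.Agent.H72.SpLBase

/-!
# S2333 (helper44's project): piece SPL-CHIT (helper72).
-/

set_option autoImplicit false

namespace Cfsg.Agent.H72.SpL

open Cfsg.Agent.H44.SpL

universe u

theorem chiT : StChiT.{u} := by
  intro F _ m h2 ψ hψ w b s r k hr hk a c
  unfold chi
  simp only
  set A : F := Cfsg.sympForm m F a w + Cfsg.sympForm m F a b * Cfsg.sympForm m F b w + s * c
    with hA
  set z : F := r * (k + 1) * Cfsg.sympForm m F a b with hz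
  have e1 : Cfsg.sympForm m F a (w + (Cfsg.sympForm m F b w + r * (k + 1)) • b) + s * c
      = A + z := by
    rw [sf_add_right, sf_smul_right, hA, hz]; ring
  have e2 : Cfsg.sympForm m F (a + Cfsg.sympForm m F a b • b) w +
      s * (c + Cfsg.sympForm m F a b ^ 2 * (kap m b + 1)) = A + z ^ 2 := by
    rw [sf_add_left, sf_smul_left, hA, hz, ← hk, ← hr]
    have : (k + 1) ^ 2 = k ^ 2 + 1 := by rw [sq_add' h2, one_pow]
    have e3 : (r * (k + 1) * Cfsg.sympForm m F a b) ^ 2 =
        r ^ 2 * (k ^ 2 + 1) * Cfsg.sympForm m F a b ^ 2 := by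
      rw [← this]; ring
    rw [e3]; ring
  rw [e1, e2, AddChar.map_add_eq_mul ψ A z, AddChar.map_add_eq_mul ψ A (z ^ 2), hψ]

example : StChiT.{u} := chiT

end Cfsg.Agent.H72.SpL
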