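import Mathlib
import Cfsg.Agent.H44.SpLDefs
import Cfsg.Agent.H72.SpLBase
import Cfsg.Agent.H72.SpLYel

/-!
# S2333 (helper44's project): piece SPL-EMB (helper72).
-/

set_option autoImplicit false

namespace Cfsg.Agent.H72.SpL

open Matrix Cfsg.Agent.H17 Cfsg.Agent.H44.SpL

universe u

section

variable {F : Type u} [Field F] (m : ℕ)

/-- The basis vector `inr 0`. -/
def e0' (F : Type u) [Field F] (m : ℕ) : Fin (m + 1) ⊕ Fin (m + 1) → F := Pi.single (Sum.inr 0) 1

theorem e0'_inl_zero : e0' F m (Sum.inl 0) = 0 := by simp [e0']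

theorem e0'_inr_zero : e0' F m (Sum.inr 0) = 1 := by simp [e0']

theorem prj_e0' : prj m (e0' F m) = 0 := by
  ext k
  rcases k with i | i
  · simp [prj, e0']
  · simp [prj, e0', Fin.succ_ne_zero]

/-- The block extension of a matrix, as a linear map. -/
def liftLin (M : Matrix (Fin m ⊕ Fin m) (Fin m ⊕ Fin m) F) :
    (Fin (m + 1) ⊕ Fin (m + 1) → F) →ₗ[F] (Fin (m + 1) ⊕ Fin (m + 1) → F) where
  toFun x := embW m (M *ᵥ prj m x) + x (Sum.inl 0) • e0 F m + x (Sum.inr 0) • e0' F m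
  map_add' x y := by
    rw [prj_add, Matrix.mulVec_add, embW_add, Pi.add_apply, Pi.add_apply, add_smul, add_smul]
    abel
  map_smul' c x := by
    rw [prj_smul, Matrix.mulVec_smul, embW_smul, Pi.smul_apply, Pi.smul_apply, RingHom.id_apply,
      smul_add, smul_add, smul_smul, smul_smul, smul_eq_mul, smul_eq_mul]

/-- The block extension of a matrix. -/
def liftMat (M : Matrix (Fin m ⊕ Fin m) (Fin m ⊕ Fin m) F) :
    Matrix (Fin (m + 1) ⊕ Fin (m + 1)) (Fin (m + 1) ⊕ Fin (m + 1)) F :=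
  LinearMap.toMatrix' (liftLin m M)

theorem liftMat_mulVec (M : Matrix (Fin m ⊕ Fin m) (Fin m ⊕ Fin m) F)
    (x : Fin (m + 1) ⊕ Fin (m + 1) → F) :
    liftMat m M *ᵥ x =
      embW m (M *ᵥ prj m x) + x (Sum.inl 0) • e0 F m + x (Sum.inr 0) • e0' F m := by
  have h : Matrix.toLin' (liftMat m M) x = liftLin m M x := by
    unfold liftMat
    rw [Matrix.toLin'_toMatrix']
  rw [Matrix.toLin'_apply] at h
  rw [h]
  rfl

theorem liftMat_prj (M : Matrix (Fin m ⊕ Fin m) (Fin m ⊕ Fin m) F)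
    (x : Fin (m + 1) ⊕ Fin (m + 1) → F) : prj m (liftMat m M *ᵥ x) = M *ᵥ prj m x := by
  rw [liftMat_mulVec]
  simp only [prj_add, prj_smul, prj_embW, prj_e0, prj_e0', smul_zero, add_zero]

theorem liftMat_inl (M : Matrix (Fin m ⊕ Fin m) (Fin m ⊕ Fin m) F)
    (x : Fin (m + 1) ⊕ Fin (m + 1) → F) : (liftMat m M *ᵥ x) (Sum.inl 0) = x (Sum.inl 0) := by
  rw [liftMat_mulVec]
  simp only [Pi.add_apply, Pi.smul_apply, smul_eq_mul, embW_inl_zero, e0_inl_zero, e0'_inl_zero,
    mul_one, mul_zero, zero_add, add_zero]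

theorem liftMat_inr (M : Matrix (Fin m ⊕ Fin m) (Fin m ⊕ Fin m) F)
    (x : Fin (m + 1) ⊕ Fin (m + 1) → F) : (liftMat m M *ᵥ x) (Sum.inr 0) = x (Sum.inr 0) := by
  rw [liftMat_mulVec]
  simp only [Pi.add_apply, Pi.smul_apply, smul_eq_mul, embW_inr_zero, e0_inr_zero, e0'_inr_zero,
    mul_one, mul_zero, zero_add, add_zero]

theorem liftMat_mem (g : Matrix.symplecticGroup (Fin m) F) :
    liftMat m (g : Matrix (Fin m ⊕ Fin m) (Fin m ⊕ Fin m) F) ∈
      Matrix.symplecticGroup (Fin (m + 1)) F := by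
  rw [mem_symplecticGroup_iff_form]
  intro x y
  rw [sf_succ, sf_succ m x y, liftMat_prj, liftMat_prj, liftMat_inl, liftMat_inl, liftMat_inr,
    liftMat_inr, sp_form]

theorem liftMat_one : liftMat m (1 : Matrix (Fin m ⊕ Fin m) (Fin m ⊕ Fin m) F) = 1 := by
  apply matrix_ext_mulVec
  intro x
  rw [Matrix.one_mulVec]
  apply vec_ext
  · rw [liftMat_prj, Matrix.one_mulVec]
  · rw [liftMat_inl]
  · rw [liftMat_inr]

theorem liftMat_mul (M N : Matrix (Fin m ⊕ Fin m) (Fin m ⊕ Fin m) F) :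
    liftMat m (M * N) = liftMat m M * liftMat m N := by
  apply matrix_ext_mulVec
  intro x
  rw [← Matrix.mulVec_mulVec]
  apply vec_ext
  · rw [liftMat_prj, liftMat_prj, liftMat_prj, Matrix.mulVec_mulVec]
  · rw [liftMat_inl, liftMat_inl, liftMat_inl]
  · rw [liftMat_inr, liftMat_inr, liftMat_inr]

/-- The embedding `Sp(m) → Sp(m+1)`. -/
def embSp : Matrix.symplecticGroup (Fin m) F →* Matrix.symplecticGroup (Fin (m + 1)) F where
  toFun g := ⟨liftMat m (g : Matrix (Fin m ⊕ Fin m) (Fin m ⊕ Fin m) F), liftMat_mem m g⟩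
  map_one' := Subtype.ext (liftMat_one m)
  map_mul' g h := Subtype.ext (by
    show liftMat m ((g * h : Matrix.symplecticGroup (Fin m) F) :
        Matrix (Fin m ⊕ Fin m) (Fin m ⊕ Fin m) F) = _
    rw [Submonoid.coe_mul, liftMat_mul]
    rfl)

theorem embSp_coe (g : Matrix.symplecticGroup (Fin m) F) :
    ((embSp m g : Matrix.symplecticGroup (Fin (m + 1)) F) :
      Matrix (Fin (m + 1) ⊕ Fin (m + 1)) (Fin (m + 1) ⊕ Fin (m + 1)) F) =
      liftMat m (g : Matrix (Fin m ⊕ Fin m) (Fin m ⊕ Fin m) F) := rfl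

end

theorem emb : StEmb.{u} := by
  intro F _ m
  refine ⟨embSp m, ?_, ?_⟩
  · intro b c
    apply Subtype.ext
    apply matrix_ext_mulVec
    intro x
    rw [embSp_coe, spTransv_mulVec]
    apply vec_ext
    · rw [liftMat_prj, spTransv_mulVec, prj_add, prj_smul, prj_embW, sf_x_embW]
    · rw [liftMat_inl]
      simp only [Pi.add_apply, Pi.smul_apply, smul_eq_mul, embW_inl_zero, mul_zero, add_zero]
    · rw [liftMat_inr]
      simp only [Pi.add_apply, Pi.smul_apply, smul_eq_mul, embW_inr_zero, mul_zero, add_zero]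
  · intro g c
    apply Subtype.ext
    apply matrix_ext_mulVec
    intro x
    rw [Submonoid.coe_mul, Submonoid.coe_mul, ← Matrix.mulVec_mulVec, ← Matrix.mulVec_mulVec,
      embSp_coe, spTransv_mulVec, spTransv_mulVec, sf_x_e0, sf_x_e0, liftMat_inr]
    apply vec_ext
    · rw [liftMat_prj, prj_add, prj_smul, prj_e0, smul_zero, add_zero, prj_add, prj_smul, prj_e0,
        smul_zero, add_zero, liftMat_prj]
    · rw [liftMat_inl]
      simp only [Pi.add_apply, Pi.smul_apply, smul_eq_mul, liftMat_inl]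
    · rw [liftMat_inr]
      simp only [Pi.add_apply, Pi.smul_apply, smul_eq_mul, liftMat_inr]

example : StEmb.{u} := emb

end Cfsg.Agent.H72.SpL
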