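import Mathlib
import Cfsg.Agent.H44.SpLDefs
import Cfsg.Agent.H72.SpLBase
import Cfsg.Agent.H72.SpLYel

/-!
# S2333 (helper44's project): piece SPL-G2 (helper72).
-/

set_option autoImplicit false

namespace Cfsg.Agent.H72.SpL

open Matrix Cfsg.Agent.H17 Cfsg.Agent.H44.SpL

universe u

theorem g2 : StG2.{u} := by
  intro F _ m h2 b a c
  apply Subtype.ext
  apply matrix_ext_mulVec
  intro x
  rw [Submonoid.coe_mul, Submonoid.coe_mul, ← Matrix.mulVec_mulVec, ← Matrix.mulVec_mulVec]
  rw [spTransv_mulVec, spTransv_mulVec]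
  have hκ : c + Cfsg.sympForm m F a b ^ 2 * (kap m b + 1) +
      kap m (a + Cfsg.sympForm m F a b • b) = c + kap m a := by
    rw [kap_add m h2, kap_smul, sf_smul_right]
    linear_combination (Cfsg.sympForm m F a b ^ 2 * (kap m b + 1)) * h2
  apply vec_ext
  · rw [yel_prj m h2, prj_add, prj_smul, prj_add, prj_smul, yel_prj m h2, prj_embW]
    simp only [sf_x_embW, yel_prj m h2, sf_add_left, sf_smul_left, sf_self, Pi.add_apply,
      Pi.smul_apply, embW_inr_zero, smul_eq_mul, mul_zero, add_zero, one_mul, smul_add,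
      add_smul, smul_smul]
    ext k
    simp only [Pi.add_apply, Pi.smul_apply, smul_eq_mul]
    linear_combination (-(x (Sum.inr 0) * Cfsg.sympForm m F a b * b k)) * h2
  · rw [yel_inl m h2]
    simp only [Pi.add_apply, Pi.smul_apply, smul_eq_mul, embW_inl_zero, embW_inr_zero, mul_zero,
      add_zero, prj_add, prj_smul, prj_embW, sf_add_left, sf_smul_left, sf_x_embW, one_mul,
      yel_inl m h2, yel_prj m h2, hκ, sf_add_right, sf_smul_right]
    rw [sf_comm m h2 b a]
    ring
  · rw [yel_inr m h2]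
    simp only [Pi.add_apply, Pi.smul_apply, smul_eq_mul, embW_inr_zero, mul_zero, add_zero,
      yel_inr m h2]

example : StG2.{u} := g2

end Cfsg.Agent.H72.SpL
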