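import Mathlib
import Cfsg.Agent.H44.SpLDefs
import Cfsg.Agent.H72.SpLBase
import Cfsg.Agent.H72.SpLYel

/-!
# S2333 (helper44's project): piece SPL-G3 (helper72).
-/

set_option autoImplicit false

namespace Cfsg.Agent.H72.SpL

open Matrix Cfsg.Agent.H17 Cfsg.Agent.H44.SpL

universe u

theorem g3 : StG3.{u} := by
  intro F _ m h2 t ht
  classical
  let δ : Fin (m + 1) ⊕ Fin (m + 1) → F :=
    Sum.elim (Fin.cons t⁻¹ (fun _ => 1)) (Fin.cons t (fun _ => 1))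
  have hprj : ∀ x : Fin (m + 1) ⊕ Fin (m + 1) → F, prj m (Matrix.diagonal δ *ᵥ x) = prj m x := by
    intro x
    ext k
    rcases k with i | i
    · rw [prj_inl, prj_inl, Matrix.mulVec_diagonal]
      simp [δ]
    · rw [prj_inr, prj_inr, Matrix.mulVec_diagonal]
      simp [δ]
  have hinl : ∀ x : Fin (m + 1) ⊕ Fin (m + 1) → F,
      (Matrix.diagonal δ *ᵥ x) (Sum.inl 0) = t⁻¹ * x (Sum.inl 0) := by
    intro x
    rw [Matrix.mulVec_diagonal]
    simp [δ]
  have hinr : ∀ x : Fin (m + 1) ⊕ Fin (m + 1) → F,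
      (Matrix.diagonal δ *ᵥ x) (Sum.inr 0) = t * x (Sum.inr 0) := by
    intro x
    rw [Matrix.mulVec_diagonal]
    simp [δ]
  have hmem : Matrix.diagonal δ ∈ Matrix.symplecticGroup (Fin (m + 1)) F := by
    rw [mem_symplecticGroup_iff_form]
    intro x y
    rw [sf_succ, sf_succ, hprj, hprj, hinl, hinl, hinr, hinr]
    field_simp
  refine ⟨⟨Matrix.diagonal δ, hmem⟩, ?_⟩
  intro a c
  apply Subtype.ext
  apply matrix_ext_mulVec
  intro x
  rw [Submonoid.coe_mul, Submonoid.coe_mul, ← Matrix.mulVec_mulVec, ← Matrix.mulVec_mulVec]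
  show ((yel m (a, c) : Matrix.symplecticGroup (Fin (m + 1)) F) :
      Matrix (Fin (m + 1) ⊕ Fin (m + 1)) (Fin (m + 1) ⊕ Fin (m + 1)) F) *ᵥ
        (Matrix.diagonal δ *ᵥ x) =
    Matrix.diagonal δ *ᵥ (((yel m (t • a, t ^ 2 * c) : Matrix.symplecticGroup (Fin (m + 1)) F) :
      Matrix (Fin (m + 1) ⊕ Fin (m + 1)) (Fin (m + 1) ⊕ Fin (m + 1)) F) *ᵥ x)
  apply vec_ext
  · rw [yel_prj m h2, hprj, hprj, yel_prj m h2, hinr, smul_smul, mul_comm]
  · rw [yel_inl m h2, hinl, hinl, yel_inl m h2, hprj, hinr, kap_smul, sf_smul_right]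
    field_simp
  · rw [yel_inr m h2, hinr, hinr, yel_inr m h2]

example : StG3.{u} := g3

end Cfsg.Agent.H72.SpL
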