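import Mathlib
import Cfsg.Agent.H44.SpLDefs
import Cfsg.Agent.H72.SpLBase

/-!
# S2333 (helper44's project): piece SPL-ORB (helper72).
-/

set_option autoImplicit false

namespace Cfsg.Agent.H72.SpL

open Cfsg.Agent.H44.SpL

universe u

theorem orb (hD : StOrbD.{u}) (hC : StCount.{u}) : StOrb.{u} := by
  intro F _ _ m h2 X hT hH w s hs hw
  classical
  set K : (Fin m ⊕ Fin m → F) → F :=
    fun d => kap m d / s + (Cfsg.sympForm m F d w) ^ 2 / s ^ 2 with hK
  have hKadd : ∀ d d', K (d + d') = K d + K d' + Cfsg.sympForm m F d d' / s := by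
    intro d d'
    simp only [hK]
    rw [kap_add m h2, sf_add_left, sq_add' h2]
    field_simp
    ring
  have hcount := hC m h2 K s hs hKadd
  set D : Set (Fin m ⊕ Fin m → F) := {d | ∃ τ : F, τ ^ 2 + τ = K d} with hDdef
  set Y : Set ((Fin m ⊕ Fin m → F) × F) := {p | p ∈ X ∧ p.2 ≠ 0} with hY
  let φ : Fˣ × (Fin m ⊕ Fin m → F) → (Fin m ⊕ Fin m → F) × F :=
    fun p => ((p.1 : F) • (w + p.2), (p.1 : F) ^ 2 * s)
  have hφ_inj : Set.InjOn φ ((Set.univ : Set Fˣ) ×ˢ D) := by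
    rintro ⟨t, d⟩ - ⟨t', d'⟩ - h
    simp only [φ, Prod.mk.injEq] at h
    obtain ⟨h1, h3⟩ := h
    have ht : (t : F) = (t' : F) := sq_inj' h2 (mul_right_cancel₀ hs h3)
    have ht' : t = t' := Units.ext ht
    subst ht'
    have : w + d = w + d' := smul_right_injective _ t.ne_zero h1
    rw [add_left_cancel this]
  have hφ_maps : Set.MapsTo φ ((Set.univ : Set Fˣ) ×ˢ D) Y := by
    rintro ⟨t, d⟩ ⟨-, τ, hτ⟩
    have h1 : (w + d, s) ∈ X := hD m h2 X hT w s hs hw d τ hτ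
    refine ⟨hH (w + d) s (t : F) h1 t.ne_zero, ?_⟩
    exact mul_ne_zero (pow_ne_zero 2 t.ne_zero) hs
  have hle : Set.ncard ((Set.univ : Set Fˣ) ×ˢ D) ≤ Set.ncard Y :=
    Set.ncard_le_ncard_of_injOn φ hφ_maps hφ_inj (Set.toFinite _)
  have hcard : Set.ncard ((Set.univ : Set Fˣ) ×ˢ D) = (Fintype.card F - 1) * Set.ncard D := by
    rw [Set.ncard_prod, Set.ncard_univ, Nat.card_eq_fintype_card, Fintype.card_units]
  rw [hcard] at hle
  calc (Fintype.card F - 1) * (Fintype.card F ^ (2 * m) - Fintype.card F ^ m)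
      ≤ (Fintype.card F - 1) * (2 * Set.ncard D) := Nat.mul_le_mul_left _ hcount
    _ = 2 * ((Fintype.card F - 1) * Set.ncard D) := by ring
    _ ≤ 2 * Set.ncard Y := Nat.mul_le_mul_left _ hle

example (hD : StOrbD.{u}) (hC : StCount.{u}) : StOrb.{u} := orb hD hC

end Cfsg.Agent.H72.SpL
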