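import Mathlib
import Cfsg.Agent.H44.SpLDefs
import Cfsg.Agent.H72.SpLBase

/-!
# S2333 (helper44's project): piece SPL-ORBD (helper72).
-/

set_option autoImplicit false

namespace Cfsg.Agent.H72.SpL

open Cfsg.Agent.H44.SpL

universe u

theorem orbD : StOrbD.{u} := by
  intro F _ _ m h2 X hX w s hs hw d τ hτ
  obtain ⟨r, hr⟩ := exists_sqrt h2 s
  obtain ⟨k, hk⟩ := exists_sqrt h2 (kap m d)
  obtain ⟨τ0, hτ0⟩ := exists_sqrt h2 τ
  have hr0 : r ≠ 0 := by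
    rintro rfl
    apply hs
    rw [← hr]; ring
  set R : F := (Cfsg.sympForm m F d w + r * k) / s with hR
  have hR2 : R ^ 2 = τ ^ 2 + τ := by
    rw [hτ, hR, div_pow, sq_add' h2, mul_pow, hr, hk]
    field_simp
    ring
  have h0 : τ0 ^ 2 + τ0 = R := by
    apply sq_inj' h2
    rw [sq_add' h2, hτ0, hR2]
  -- a nonzero solution
  obtain ⟨τ', hτ'0, hτ'⟩ : ∃ τ' : F, τ' ≠ 0 ∧ τ' ^ 2 + τ' = R := by
    by_cases h : τ0 = 0
    · refine ⟨1, one_ne_zero, ?_⟩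
      rw [← h0, h]
      have := add_self' h2 (1 : F)
      rw [one_pow, this]; ring
    · exact ⟨τ0, h, h0⟩
  set μ : F := r * τ' with hμ
  have hμ0 : μ ≠ 0 := mul_ne_zero hr0 hτ'0
  have hkb : (μ⁻¹ * k) ^ 2 = kap m (μ⁻¹ • d) := by
    rw [kap_smul, mul_pow, hk]
  have key := hX w (μ⁻¹ • d) s r (μ⁻¹ * k) hw hr hkb
  have hcoef : Cfsg.sympForm m F (μ⁻¹ • d) w + r * (μ⁻¹ * k + 1) = μ := by
    rw [sf_smul_left]
    have e1 : Cfsg.sympForm m F d w + r * k = s * R := by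
      rw [hR]; field_simp
    have e2 : μ⁻¹ * Cfsg.sympForm m F d w + r * (μ⁻¹ * k + 1) =
        μ⁻¹ * (Cfsg.sympForm m F d w + r * k) + r := by ring
    have e3 : μ⁻¹ * (r ^ 2 * (τ' ^ 2 + τ')) = r * (τ' + 1) := by
      have : r ^ 2 * (τ' ^ 2 + τ') = μ * (r * (τ' + 1)) := by rw [hμ]; ring
      rw [this, ← mul_assoc, inv_mul_cancel₀ hμ0, one_mul]
    rw [e2, e1, ← hτ', ← hr, e3, hμ]
    linear_combination r * h2
  rw [hcoef, smul_smul, mul_inv_cancel₀ hμ0, one_smul] at key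
  exact key

example : StOrbD.{u} := orbD

end Cfsg.Agent.H72.SpL
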