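import Mathlib
import Cfsg.Agent.H17.TgDefs

/-!
# S1904 (helper17's team project), piece TG-D1QUOT (helper72)

If every normal `A`-invariant abelian subgroup of `X` is central, then `X / Z(X)` is elementary
abelian: `Y := {y : y² ∈ Z ∧ [y, X] ⊆ Z}` is a normal `A`-invariant subgroup, `Z(Y) ≤ Z`, hence
`C_X(Y) = Z` (StCrit), and `x²`, `[x, x']` centralize `Y` (for `y ∈ Y`, `g ↦ [g, y]` is a
homomorphism into `Z` whose values have square `1`).
-/

set_option autoImplicit false

universe u

namespace Cfsg.Agent.H72.Tg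

open Cfsg.Agent.H17.Tg

section Aux

variable {X : Type u} [Group X]

/-- automorphisms preserve the centre -/
theorem aut_center (φ : MulAut X) {z : X} (hz : z ∈ Subgroup.center X) :
    φ z ∈ Subgroup.center X := by
  rw [Subgroup.mem_center_iff] at hz ⊢
  intro g
  have h := hz (φ.symm g)
  have h2 := congrArg φ h
  simpa [map_mul] using h2

/-- `g ↦ g y g⁻¹ y⁻¹` as a homomorphism into the centre (when all these commutators are
central). -/
def dHom (y : X) (hy : ∀ g : X, g * y * g⁻¹ * y⁻¹ ∈ Subgroup.center X) :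
    X →* Subgroup.center X where
  toFun g := ⟨g * y * g⁻¹ * y⁻¹, hy g⟩
  map_one' := by
    apply Subtype.ext
    show (1 : X) * y * 1⁻¹ * y⁻¹ = 1
    group
  map_mul' g g' := by
    apply Subtype.ext
    show g * g' * y * (g * g')⁻¹ * y⁻¹ = (g * y * g⁻¹ * y⁻¹) * (g' * y * g'⁻¹ * y⁻¹)
    have hc := Subgroup.mem_center_iff.mp (hy g')
    calc g * g' * y * (g * g')⁻¹ * y⁻¹
        = g * (g' * y * g'⁻¹ * y⁻¹) * (y * g⁻¹ * y⁻¹) := by group
      _ = (g' * y * g'⁻¹ * y⁻¹) * g * (y * g⁻¹ * y⁻¹) := by rw [hc g]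
      _ = (g' * y * g'⁻¹ * y⁻¹) * (g * y * g⁻¹ * y⁻¹) := by group
      _ = (g * y * g⁻¹ * y⁻¹) * (g' * y * g'⁻¹ * y⁻¹) := (hc _).symm

theorem dHom_apply (y : X) (hy : ∀ g : X, g * y * g⁻¹ * y⁻¹ ∈ Subgroup.center X) (g : X) :
    ((dHom y hy g : Subgroup.center X) : X) = g * y * g⁻¹ * y⁻¹ := rfl

/-- `dHom y g = 1` iff `g` commutes with `y` -/
theorem dHom_eq_one_iff (y : X) (hy : ∀ g : X, g * y * g⁻¹ * y⁻¹ ∈ Subgroup.center X) (g : X) :
    dHom y hy g = 1 ↔ y * g = g * y := by
  rw [← Subtype.coe_inj, dHom_apply, Subgroup.coe_one]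
  constructor
  · intro h
    have : g * y * g⁻¹ = y := by
      rw [mul_inv_eq_one] at h
      exact h
    rw [mul_inv_eq_iff_eq_mul] at this
    exact this.symm
  · intro h
    rw [← h]
    group

/-- the values of `dHom y` have square `1` when `y * y` is central -/
theorem dHom_sq (y : X) (hy : ∀ g : X, g * y * g⁻¹ * y⁻¹ ∈ Subgroup.center X)
    (hyy : y * y ∈ Subgroup.center X) (g : X) : dHom y hy g * dHom y hy g = 1 := by
  apply Subtype.ext
  show (g * y * g⁻¹ * y⁻¹) * (g * y * g⁻¹ * y⁻¹) = 1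
  have hc := Subgroup.mem_center_iff.mp (hy g)
  have hyy' := Subgroup.mem_center_iff.mp hyy
  set d := g * y * g⁻¹ * y⁻¹ with hd
  -- g y g⁻¹ = d y
  have h1 : g * y * g⁻¹ = d * y := by rw [hd]; group
  have h2 : g * (y * y) * g⁻¹ = (d * d) * (y * y) := by
    calc g * (y * y) * g⁻¹ = (g * y * g⁻¹) * (g * y * g⁻¹) := by group
      _ = (d * y) * (d * y) := by rw [h1]
      _ = d * (y * d) * y := by group
      _ = d * (d * y) * y := by rw [hc y]
      _ = (d * d) * (y * y) := by group
  have h3 : g * (y * y) * g⁻¹ = y * y := by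
    rw [hyy' g]
    group
  rw [h3] at h2
  have h4 : 1 * (y * y) = (d * d) * (y * y) := by rw [one_mul]; exact h2
  exact (mul_right_cancel h4).symm

end Aux

theorem d1Quot (hCrit : StCrit.{u}) : StD1Quot.{u} := by
  intro X _ _ A hyp hcen
  classical
  -- the quotient by the centre
  let π : X →* X ⧸ Subgroup.center X := QuotientGroup.mk' (Subgroup.center X)
  have hπ1 : ∀ g : X, π g = 1 ↔ g ∈ Subgroup.center X := fun g =>
    QuotientGroup.eq_one_iff g
  -- `Ω₁(Z(X / Z))`
  let Ω : Subgroup (X ⧸ Subgroup.center X) :=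
    { carrier := {c | c ∈ Subgroup.center (X ⧸ Subgroup.center X) ∧ c * c = 1}
      mul_mem' := by
        rintro a b ⟨ha, ha2⟩ ⟨hb, hb2⟩
        refine ⟨Subgroup.mul_mem _ ha hb, ?_⟩
        have hab : b * a = a * b := Subgroup.mem_center_iff.mp ha b
        calc a * b * (a * b) = a * (b * a) * b := by group
          _ = a * (a * b) * b := by rw [hab]
          _ = (a * a) * (b * b) := by group
          _ = 1 := by rw [ha2, hb2, one_mul]
      one_mem' := ⟨Subgroup.one_mem _, one_mul 1⟩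
      inv_mem' := by
        rintro a ⟨ha, ha2⟩
        refine ⟨Subgroup.inv_mem _ ha, ?_⟩
        rw [← mul_inv_rev, ha2, inv_one] }
  have hΩn : Ω.Normal := by
    constructor
    rintro c ⟨hc, hc2⟩ g
    have h : g * c * g⁻¹ = c := by
      rw [Subgroup.mem_center_iff.mp hc g]
      group
    rw [h]
    exact ⟨hc, hc2⟩
  let Y : Subgroup X := Ω.comap π
  have hYn : Y.Normal := hΩn.comap π
  have hY : ∀ y : X, y ∈ Y ↔ (y * y ∈ Subgroup.center X ∧
      ∀ x : X, y * x * y⁻¹ * x⁻¹ ∈ Subgroup.center X) := by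
    intro y
    show (π y ∈ Subgroup.center (X ⧸ Subgroup.center X) ∧ π y * π y = 1) ↔ _
    rw [← map_mul, hπ1]
    constructor
    · rintro ⟨h1, h2⟩
      refine ⟨h2, fun x => ?_⟩
      rw [← hπ1]
      have h3 := Subgroup.mem_center_iff.mp h1 (π x)
      simp only [map_mul, map_inv]
      rw [← h3]
      group
    · rintro ⟨h2, h1⟩
      refine ⟨?_, h2⟩
      rw [Subgroup.mem_center_iff]
      intro g
      obtain ⟨x, rfl⟩ := QuotientGroup.mk'_surjective (Subgroup.center X) g
      have h3 := (hπ1 _).2 (h1 x)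
      simp only [map_mul, map_inv] at h3
      rw [mul_inv_eq_one, mul_inv_eq_iff_eq_mul] at h3
      exact h3.symm
  -- `Y` is `A`-invariant
  have hYA : AInv A Y := by
    intro φ _ y hy
    rw [hY] at hy ⊢
    obtain ⟨h2, h1⟩ := hy
    refine ⟨?_, fun x => ?_⟩
    · have := aut_center φ h2
      simpa [map_mul] using this
    · have := aut_center φ (h1 (φ.symm x))
      simpa [map_mul, map_inv] using this
  -- the centre of `Y`
  let ZY : Subgroup X := Y ⊓ Subgroup.centralizer (Y : Set X)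
  have hZYn : ZY.Normal := inferInstance
  have hZY : NAI A ZY := by
    refine ⟨hZYn, ?_, ?_⟩
    · intro φ hφ h hh
      refine ⟨hYA φ hφ h hh.1, ?_⟩
      show φ h ∈ Subgroup.centralizer (Y : Set X)
      rw [Subgroup.mem_centralizer_iff]
      intro y' hy'
      have h1 : φ⁻¹ y' ∈ Y := hYA φ⁻¹ (A.inv_mem hφ) y' hy'
      have h2 := (Subgroup.mem_centralizer_iff.mp hh.2) _ h1
      have h3 := congrArg φ h2
      simpa [map_mul] using h3
    · intro a ha b hb
      exact ((Subgroup.mem_centralizer_iff.mp hb.2) a ha.1)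
  have hZYle := hcen ZY hZY
  -- `C_X(Y) = Z`
  have hC : Subgroup.centralizer (Y : Set X) ≤ Subgroup.center X := by
    by_contra hne
    have hle : Subgroup.center X ≤ Subgroup.centralizer (Y : Set X) :=
      Subgroup.center_le_centralizer _
    have hne' : Subgroup.center X ≠ Subgroup.centralizer (Y : Set X) := by
      intro h
      exact hne (h ▸ le_refl _)
    obtain ⟨k, hkC, hkZ, hk2, hkx⟩ := hCrit X hyp.pgrp (Subgroup.center X)
      (Subgroup.centralizer (Y : Set X)) inferInstance inferInstance hle hne'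
    have hkY : k ∈ Y := by
      rw [hY]
      refine ⟨?_, hkx⟩
      rw [← pow_two]
      exact hk2
    exact hkZ (hZYle ⟨hkY, hkC⟩)
  -- for `y ∈ Y` the commutator homomorphism
  have hyc : ∀ y ∈ Y, ∀ g : X, g * y * g⁻¹ * y⁻¹ ∈ Subgroup.center X := by
    intro y hy g
    have h1 := ((hY y).1 hy).2 g
    have h2 := Subgroup.inv_mem _ h1
    have e : (y * g * y⁻¹ * g⁻¹)⁻¹ = g * y * g⁻¹ * y⁻¹ := by group
    rwa [e] at h2
  constructor
  · intro x
    apply hC
    rw [Subgroup.mem_centralizer_iff]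
    intro y hy
    have h1 : dHom y (hyc y hy) (x ^ 2) = 1 := by
      rw [pow_two, map_mul]
      exact dHom_sq y (hyc y hy) ((hY y).1 hy).1 x
    exact (dHom_eq_one_iff y (hyc y hy) (x ^ 2)).1 h1
  · intro x x'
    apply hC
    rw [Subgroup.mem_centralizer_iff]
    intro y hy
    have h1 : dHom y (hyc y hy) (x * x' * x⁻¹ * x'⁻¹) = 1 := by
      simp only [map_mul, map_inv]
      have hcomm : dHom y (hyc y hy) x * dHom y (hyc y hy) x'
          = dHom y (hyc y hy) x' * dHom y (hyc y hy) x := by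
        apply Subtype.ext
        exact (Subgroup.mem_center_iff.mp (dHom y (hyc y hy) x).2 _).symm
      rw [hcomm]
      group
    exact (dHom_eq_one_iff y (hyc y hy) _).1 h1

example (hCrit : StCrit.{u}) : Cfsg.Agent.H17.Tg.StD1Quot.{u} := d1Quot hCrit

end Cfsg.Agent.H72.Tg
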