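import Mathlib
import Cfsg.Agent.H17.TgDefs
import Cfsg.Agent.H72.TgD1Quot

/-!
# S1904 (helper17's team project), piece TG-D1EXPT (helper72)

If every normal `A`-invariant abelian subgroup is central and `A` centralizes `Ω₁(Z(X))`, then
`Z(X)` has exponent `2`: `A` centralizes `Z(X)` (induction on the order of `z`, `|A|` odd), so
`Z(X) ≤ X'` by StFix, and `X'` is generated by central involutions (StD1Quot).
-/

set_option autoImplicit false

universe u

namespace Cfsg.Agent.H72.Tg

open Cfsg.Agent.H17.Tg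

section Aux2

variable {X : Type u} [Group X]

/-- an automorphism of odd order fixing `w` with `w * w = 1` and `φ z = z * w` fixes `z` -/
theorem fix_of_odd (φ : MulAut X) (hodd : Odd (orderOf φ)) (z w : X) (hw : φ w = w)
    (hww : w * w = 1) (hz : φ z = z * w) : φ z = z := by
  have hj : ∀ j : ℕ, (φ ^ j) z = z * w ^ j := by
    intro j
    induction j with
    | zero => simp
    | succ j ih =>
      rw [pow_succ', MulAut.mul_apply, ih, map_mul, map_pow, hz, hw, pow_succ']
      group
  have h1 := hj (orderOf φ)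
  rw [pow_orderOf_eq_one, MulAut.one_apply] at h1
  obtain ⟨t, ht⟩ := hodd
  have h2 : w ^ orderOf φ = w := by
    rw [ht, pow_succ, pow_mul, pow_two, hww, one_pow, one_mul]
  rw [h2] at h1
  rw [hz]
  exact h1.symm

end Aux2

theorem d1ExpT (hQuot : StD1Quot.{u}) (hFix : StFix.{u}) : StD1ExpT.{u} := by
  intro X _ _ A hyp hcen hfix
  classical
  obtain ⟨hsq, hcomm⟩ := hQuot X A hyp hcen
  -- orders of elements of `A` are odd
  have hoddφ : ∀ φ ∈ A, Odd (orderOf φ) := by
    intro φ hφ
    have h1 : orderOf (⟨φ, hφ⟩ : A) ∣ Nat.card A := orderOf_dvd_natCard _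
    have h2 : orderOf (⟨φ, hφ⟩ : A) = orderOf φ := by
      rw [← Subgroup.orderOf_coe]
    rw [h2] at h1
    exact hyp.odd.of_dvd_nat h1
  -- `A` centralizes the centre
  have hA : ∀ φ ∈ A, ∀ k : ℕ, ∀ z ∈ Subgroup.center X, z ^ 2 ^ k = 1 → φ z = z := by
    intro φ hφ k
    induction k with
    | zero =>
      intro z _ hz
      rw [pow_zero, pow_one] at hz
      rw [hz, map_one]
    | succ k ih =>
      intro z hz hzk
      have hz2 : z ^ 2 ∈ Subgroup.center X := Subgroup.pow_mem _ hz 2
      have h1 : φ (z ^ 2) = z ^ 2 := by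
        apply ih _ hz2
        rw [← pow_mul, ← pow_succ']
        exact hzk
      have hφz : φ z ∈ Subgroup.center X := aut_center φ hz
      have hzc := Subgroup.mem_center_iff.mp hz
      have hw : z⁻¹ * φ z ∈ Subgroup.center X :=
        Subgroup.mul_mem _ (Subgroup.inv_mem _ hz) hφz
      have hww : (z⁻¹ * φ z) * (z⁻¹ * φ z) = 1 := by
        have e : (z⁻¹ * φ z) * (z⁻¹ * φ z) = z⁻¹ * (φ z * z⁻¹) * φ z := by group
        have e2 : φ z * z⁻¹ = z⁻¹ * φ z :=
          Subgroup.mem_center_iff.mp (Subgroup.inv_mem _ hz) (φ z)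
        rw [e, e2]
        have e3 : z⁻¹ * (z⁻¹ * φ z) * φ z = (z ^ 2)⁻¹ * φ (z ^ 2) := by
          rw [map_pow, pow_two, pow_two, mul_inv_rev]
          simp only [mul_assoc]
        rw [e3, h1]
        group
      have hw2 : (z⁻¹ * φ z) ^ 2 = 1 := by rw [pow_two]; exact hww
      have hφw : φ (z⁻¹ * φ z) = z⁻¹ * φ z := hfix φ hφ _ hw hw2
      exact fix_of_odd φ (hoddφ φ hφ) z (z⁻¹ * φ z) hφw hww (by group)
  -- `Z ≤ X'`
  have hZle : ∀ z ∈ Subgroup.center X, z ∈ commutator X := by
    intro z hz
    apply hFix X A hyp (commutator X) inferInstance (le_refl _) z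
    intro φ hφ
    obtain ⟨k, hk⟩ := hyp.pgrp z
    rw [hA φ hφ k z hz hk]
    simp
  -- the central involutions form a subgroup containing all commutators
  let V : Subgroup X :=
    { carrier := {v | v ∈ Subgroup.center X ∧ v * v = 1}
      mul_mem' := by
        rintro a b ⟨ha, ha2⟩ ⟨hb, hb2⟩
        refine ⟨Subgroup.mul_mem _ ha hb, ?_⟩
        have hab : b * a = a * b := Subgroup.mem_center_iff.mp ha b
        calc a * b * (a * b) = a * (b * a) * b := by group
          _ = a * (a * b) * b := by rw [hab]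
          _ = (a * a) * (b * b) := by group
          _ = 1 := by rw [ha2, hb2, one_mul]
      one_mem' := ⟨Subgroup.one_mem _, one_mul 1⟩
      inv_mem' := by
        rintro a ⟨ha, ha2⟩
        refine ⟨Subgroup.inv_mem _ ha, ?_⟩
        rw [← mul_inv_rev, ha2, inv_one] }
  have hXV : commutator X ≤ V := by
    rw [commutator_def, Subgroup.commutator_le]
    intro a _ b _
    refine ⟨hcomm a b, ?_⟩
    have hy : ∀ g : X, g * b * g⁻¹ * b⁻¹ ∈ Subgroup.center X := fun g => hcomm g b
    have hbb : b * b ∈ Subgroup.center X := by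
      have := hsq b
      rwa [pow_two] at this
    have h := dHom_sq b hy hbb a
    have h' := congrArg Subtype.val h
    exact h'
  intro z hz
  have h := (hXV (hZle z hz)).2
  rw [pow_two]
  exact h

example (hQuot : StD1Quot.{u}) (hFix : StFix.{u}) : Cfsg.Agent.H17.Tg.StD1ExpT.{u} :=
  d1ExpT hQuot hFix

end Cfsg.Agent.H72.Tg
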