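import Cfsg.Agent.H64.TmDefs

/-!
# S3701 (team project TM, lead helper64) piece TM-D: the subgroup `D = ⟨a, b, x⟩`
-/

set_option autoImplicit false

universe u

namespace Cfsg.Agent.H72.Tm

open Subgroup Cfsg.Agent.H64.Tm

section
variable {G : Type u} [Group G]

theorem pow_mod_of {g : G} {n : ℕ} (h : g ^ n = 1) (i : ℕ) : g ^ i = g ^ (i % n) := by
  conv_lhs => rw [← Nat.mod_add_div i n, pow_add, pow_mul, h, one_pow, mul_one]

/-- `x * a = a⁻¹ * x`, `a^3 = 1` ⟹ `x * a^i = a^(2*i) * x` -/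
theorem inv_conj_pow {x a : G} (h : x * a = a⁻¹ * x) (a3 : a ^ 3 = 1) (i : ℕ) :
    x * a ^ i = a ^ (2 * i) * x := by
  have hinv : a⁻¹ = a ^ 2 := by
    rw [inv_eq_iff_mul_eq_one, ← pow_succ', a3]
  induction i with
  | zero => simp
  | succ i ih =>
    rw [pow_succ, ← mul_assoc, ih, mul_assoc, h, hinv, ← mul_assoc, ← pow_add]
    rfl

/-- `x^m * a^k = a^(2^m * k) * x^m` -/
theorem xpow_conj {x a : G} (h : x * a = a⁻¹ * x) (a3 : a ^ 3 = 1) (m k : ℕ) :
    x ^ m * a ^ k = a ^ (2 ^ m * k) * x ^ m := by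
  induction m generalizing k with
  | zero => simp
  | succ m ih =>
    rw [pow_succ, mul_assoc, inv_conj_pow h a3, ← mul_assoc, ih, mul_assoc]
    congr 2
    ring

/-- the normal form of the elements of `⟨a, b, x⟩` -/
def RepD (a b x w : G) : Prop := ∃ i j m : ℕ, w = a ^ i * b ^ j * x ^ m

theorem repD_mul_x {a b x w : G} (h : RepD a b x w) : RepD a b x (w * x) := by
  obtain ⟨i, j, m, rfl⟩ := h
  exact ⟨i, j, m + 1, by rw [pow_succ, mul_assoc]⟩

theorem repD_mul_a {a b x w : G} (hab : a * b = b * a) (hxa : x * a = a⁻¹ * x) (a3 : a ^ 3 = 1)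
    (k : ℕ) (h : RepD a b x w) : RepD a b x (w * a ^ k) := by
  obtain ⟨i, j, m, rfl⟩ := h
  refine ⟨i + 2 ^ m * k, j, m, ?_⟩
  have hc : Commute a b := hab
  have hsw : b ^ j * a ^ (2 ^ m * k) = a ^ (2 ^ m * k) * b ^ j :=
    ((hc.pow_pow (2 ^ m * k) j).eq).symm
  calc a ^ i * b ^ j * x ^ m * a ^ k = a ^ i * (b ^ j * a ^ (2 ^ m * k)) * x ^ m := by
        rw [mul_assoc (a ^ i * b ^ j), xpow_conj hxa a3]
        simp only [mul_assoc]
    _ = a ^ (i + 2 ^ m * k) * b ^ j * x ^ m := by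
        rw [hsw, pow_add]
        simp only [mul_assoc]

theorem repD_mul_b {a b x w : G} (hxb : x * b = b⁻¹ * x) (b3 : b ^ 3 = 1)
    (k : ℕ) (h : RepD a b x w) : RepD a b x (w * b ^ k) := by
  obtain ⟨i, j, m, rfl⟩ := h
  refine ⟨i, j + 2 ^ m * k, m, ?_⟩
  rw [mul_assoc (a ^ i * b ^ j), xpow_conj hxb b3, pow_add]
  simp only [mul_assoc]

end

/-- TM-D. -/
theorem dfacts : StD.{u} := by
  intro G _ _ H T a b c x y cfg
  obtain ⟨D, hD⟩ : ∃ D : Subgroup G, D = closure ({a, b, x} : Set G) := ⟨_, rfl⟩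
  rw [← hD]
  have haD : a ∈ D := by
    rw [hD]
    exact subset_closure (by simp)
  have hbD : b ∈ D := by
    rw [hD]
    exact subset_closure (by simp)
  have hxD : x ∈ D := by
    rw [hD]
    exact subset_closure (by simp)
  have hainv : a⁻¹ = a ^ 2 := by
    rw [inv_eq_iff_mul_eq_one, ← pow_succ', cfg.a3]
  have hbinv : b⁻¹ = b ^ 2 := by
    rw [inv_eq_iff_mul_eq_one, ← pow_succ', cfg.b3]
  have hxinv : x⁻¹ = x := inv_eq_of_mul_eq_one_right cfg.x2
  have x2 : x ^ 2 = 1 := by rw [pow_two, cfg.x2]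
  -- (1) normal form
  have h1 : ∀ w ∈ D, RepD a b x w := by
    intro w hw
    rw [hD] at hw
    induction hw using closure_induction_right with
    | one => exact ⟨0, 0, 0, by simp⟩
    | mul_right w hw g hg ih =>
      rcases hg with rfl | rfl | rfl
      · have := repD_mul_a cfg.ab cfg.xa cfg.a3 1 ih
        rwa [pow_one] at this
      · have := repD_mul_b (a := a) cfg.xb cfg.b3 1 ih
        rwa [pow_one] at this
      · exact repD_mul_x ih
    | mul_inv_cancel w hw g hg ih =>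
      rcases hg with rfl | rfl | rfl
      · rw [hainv]
        exact repD_mul_a cfg.ab cfg.xa cfg.a3 2 ih
      · rw [hbinv]
        exact repD_mul_b (a := a) cfg.xb cfg.b3 2 ih
      · rw [hxinv]
        exact repD_mul_x ih
  -- (2) `D` centralizes `c`
  have h2 : ∀ w ∈ D, w * c = c * w := by
    have hle : D ≤ centralizer ({c} : Set G) := by
      rw [hD, closure_le]
      rintro g (rfl | rfl | rfl)
      · intro h hh
        rw [Set.mem_singleton_iff] at hh
        rw [hh]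
        exact cfg.ac.symm
      · intro h hh
        rw [Set.mem_singleton_iff] at hh
        rw [hh]
        exact cfg.bc.symm
      · intro h hh
        rw [Set.mem_singleton_iff] at hh
        rw [hh]
        exact cfg.xc.symm
    intro w hw
    exact (hle hw c (Set.mem_singleton c)).symm
  -- (3) `D` is normalized by `H`
  obtain ⟨M, hM⟩ : ∃ M : Submonoid G, ∀ n : G, n ∈ M ↔ ∀ w ∈ D, n * w * n⁻¹ ∈ D :=
    ⟨{ carrier := {n | ∀ w ∈ D, n * w * n⁻¹ ∈ D}
       mul_mem' := by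
        intro n1 n2 h1 h2 w hw
        have e : n1 * n2 * w * (n1 * n2)⁻¹ = n1 * (n2 * w * n2⁻¹) * n1⁻¹ := by group
        rw [e]
        exact h1 _ (h2 _ hw)
       one_mem' := by
        intro w hw
        simpa using hw }, fun n => Iff.rfl⟩
  have hDM : ∀ g ∈ D, g ∈ M := by
    intro g hg
    rw [hM]
    intro w hw
    exact D.mul_mem (D.mul_mem hg hw) (D.inv_mem hg)
  have hcM : c ∈ M := by
    rw [hM]
    intro w hw
    rw [← h2 w hw, mul_inv_cancel_right]
    exact hw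
  have hyM : y ∈ M := by
    rw [hM]
    have hle : D ≤ D.comap (MulAut.conj y).toMonoidHom := by
      conv_lhs => rw [hD]
      rw [closure_le]
      rintro g (rfl | rfl | rfl)
      · show y * g * y⁻¹ ∈ D
        rw [cfg.ya, mul_inv_cancel_right]
        exact D.inv_mem haD
      · show y * g * y⁻¹ ∈ D
        rw [cfg.yb, mul_inv_cancel_right]
        exact hbD
      · show y * g * y⁻¹ ∈ D
        rw [← cfg.xy, mul_inv_cancel_right]
        exact hxD
    intro w hw
    exact hle hw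
  have h3 : ∀ n ∈ H, ∀ w ∈ D, n * w * n⁻¹ ∈ D := by
    intro n hn
    rw [← hM]
    obtain ⟨t, ht, hnt⟩ := cfg.Helts n hn
    obtain ⟨i, j, k, rfl⟩ := cfg.Telts t ht
    have htM : a ^ i * b ^ j * c ^ k ∈ M :=
      M.mul_mem (M.mul_mem (M.pow_mem (hDM a haD) i) (M.pow_mem (hDM b hbD) j)) (M.pow_mem hcM k)
    rcases hnt with rfl | rfl | rfl | rfl
    · exact htM
    · exact M.mul_mem htM (hDM x hxD)
    · exact M.mul_mem htM hyM
    · exact M.mul_mem htM (M.mul_mem (hDM x hxD) hyM)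
  -- (4) the order
  have hc : Commute a b := cfg.ab
  have hK : ∀ i j i' j' : ℕ, a ^ i * b ^ j = a ^ i' * b ^ j' →
      3 ∣ i + i' * 2 ∧ 3 ∣ j + j' * 2 := by
    intro i j i' j' heq
    have hsw : b ^ j * a ^ (i' * 2) = a ^ (i' * 2) * b ^ j :=
      ((hc.pow_pow (i' * 2) j).eq).symm
    have e1 : a ^ (i + i' * 2) * b ^ (j + j' * 2) = a ^ i * b ^ j * (a ^ i' * b ^ j') ^ 2 := by
      calc a ^ (i + i' * 2) * b ^ (j + j' * 2)
          = a ^ i * (a ^ (i' * 2) * b ^ j) * b ^ (j' * 2) := by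
            rw [pow_add, pow_add]
            simp only [mul_assoc]
        _ = a ^ i * (b ^ j * a ^ (i' * 2)) * b ^ (j' * 2) := by rw [hsw]
        _ = a ^ i * b ^ j * (a ^ i' * b ^ j') ^ 2 := by
            rw [(hc.pow_pow i' j').mul_pow 2, ← pow_mul, ← pow_mul]
            simp only [mul_assoc]
    have e2 : a ^ (i + i' * 2) * b ^ (j + j' * 2) * c ^ 0 = 1 := by
      rw [pow_zero, mul_one, e1, heq, ← pow_succ', (hc.pow_pow i' j').mul_pow 3, ← pow_mul,
        ← pow_mul, mul_comm i' 3, mul_comm j' 3, pow_mul, pow_mul, cfg.a3, cfg.b3, one_pow,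
        one_pow, mul_one]
    have := cfg.indep _ _ _ e2
    exact ⟨this.1, this.2.1⟩
  have hX : ∀ i j i' j' : ℕ, a ^ i * b ^ j ≠ a ^ i' * b ^ j' * x := by
    intro i j i' j' heq
    apply cfg.xT
    have e : x = (a ^ i' * b ^ j')⁻¹ * (a ^ i * b ^ j) := by
      rw [heq, inv_mul_cancel_left]
    rw [e]
    exact T.mul_mem (T.inv_mem (T.mul_mem (T.pow_mem cfg.aT _) (T.pow_mem cfg.bT _)))
      (T.mul_mem (T.pow_mem cfg.aT _) (T.pow_mem cfg.bT _))
  obtain ⟨f, hf⟩ : ∃ f : Fin 3 × Fin 3 × Fin 2 → G,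
      ∀ p, f p = a ^ (p.1 : ℕ) * b ^ (p.2.1 : ℕ) * x ^ (p.2.2 : ℕ) := ⟨_, fun _ => rfl⟩
  have hinj : Function.Injective f := by
    rintro ⟨⟨i, hi⟩, ⟨j, hj⟩, ⟨m, hm⟩⟩ ⟨⟨i', hi'⟩, ⟨j', hj'⟩, ⟨m', hm'⟩⟩ h
    rw [hf, hf] at h
    have h' : a ^ i * b ^ j * x ^ m = a ^ i' * b ^ j' * x ^ m' := h
    interval_cases m <;> interval_cases m'
    · simp only [pow_zero, mul_one] at h'
      obtain ⟨k1, k2⟩ := hK i j i' j' h'
      have e1 : i = i' := by omega
      have e2 : j = j' := by omega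
      subst e1
      subst e2
      rfl
    · simp only [pow_zero, mul_one, pow_one] at h'
      exact absurd h' (hX i j i' j')
    · simp only [pow_zero, mul_one, pow_one] at h'
      exact absurd h'.symm (hX i' j' i j)
    · simp only [pow_one] at h'
      obtain ⟨k1, k2⟩ := hK i j i' j' (mul_right_cancel h')
      have e1 : i = i' := by omega
      have e2 : j = j' := by omega
      subst e1
      subst e2
      rfl
  have hrange : (D : Set G) = Set.range f := by
    ext w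
    constructor
    · intro hw
      obtain ⟨i, j, m, rfl⟩ := h1 w hw
      refine ⟨(⟨i % 3, Nat.mod_lt _ (by norm_num)⟩, ⟨j % 3, Nat.mod_lt _ (by norm_num)⟩,
        ⟨m % 2, Nat.mod_lt _ (by norm_num)⟩), ?_⟩
      rw [hf]
      show a ^ (i % 3) * b ^ (j % 3) * x ^ (m % 2) = _
      rw [← pow_mod_of cfg.a3, ← pow_mod_of cfg.b3, ← pow_mod_of x2]
    · rintro ⟨p, rfl⟩
      rw [hf]
      exact D.mul_mem (D.mul_mem (D.pow_mem haD _) (D.pow_mem hbD _)) (D.pow_mem hxD _)
  have h4 : Nat.card D = 18 := by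
    have e : Nat.card D = Nat.card (Set.range f) := Nat.card_congr (Equiv.setCongr hrange)
    rw [e, Nat.card_range_of_injective hinj, Nat.card_eq_fintype_card]
    rfl
  exact ⟨h1, h2, h3, h4⟩

end Cfsg.Agent.H72.Tm

example : Cfsg.Agent.H64.Tm.StD.{u} := Cfsg.Agent.H72.Tm.dfacts
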