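import Cfsg.Agent.H64.TmDefs

/-!
# S3701 (team project TM, lead helper64) piece TM-SYL: `T` is a Sylow 3-subgroup of `G`
-/

set_option autoImplicit false

universe u

namespace Cfsg.Agent.H72.Tm

open Subgroup Cfsg.Agent.H64.Tm

/-- TM-SYL. -/
theorem syl : StSyl.{u} := by
  intro G _ _ H T a b c x y cfg
  haveI : Fact (Nat.Prime 3) := ⟨by norm_num⟩
  have hT3 : IsPGroup 3 T := IsPGroup.of_card (n := 3) (by rw [cfg.cardT]; norm_num)
  obtain ⟨P, hTP⟩ := hT3.exists_le_sylow
  refine ⟨P, ?_⟩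
  by_contra hne
  haveI : Group.IsNilpotent ↥(P : Subgroup G) := P.isPGroup'.isNilpotent
  have hnc := Group.normalizerCondition_of_isNilpotent (G := ↥(P : Subgroup G))
  have hlt' : T.subgroupOf (P : Subgroup G) < ⊤ := by
    rw [lt_top_iff_ne_top]
    intro h
    rw [subgroupOf_eq_top] at h
    exact hne (le_antisymm h hTP)
  have h2 := hnc _ hlt'
  obtain ⟨g, hgN, hgT⟩ := SetLike.exists_of_lt h2
  -- `N := N_P(T)` is a 3-subgroup of `H` containing `T`
  obtain ⟨N, hN⟩ : ∃ N : Subgroup G, N = normalizer (T : Set G) ⊓ (P : Subgroup G) := ⟨_, rfl⟩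
  have hTN : T ≤ N := by
    rw [hN]
    exact le_inf le_normalizer hTP
  have hNH : N ≤ H := by
    rw [hN, cfg.norm]
    exact inf_le_left
  have hN3 : IsPGroup 3 N := by
    rw [hN]
    exact P.isPGroup'.to_le inf_le_right
  obtain ⟨m, hm⟩ := hN3.exists_card_eq
  have h27 : 27 ∣ Nat.card N := by
    rw [← cfg.cardT]
    exact Subgroup.card_dvd_of_le hTN
  have h108 : Nat.card N ∣ 108 := by
    rw [← cfg.cardH]
    exact Subgroup.card_dvd_of_le hNH
  have hcard : Nat.card N = 27 := by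
    rw [hm] at h27 h108 ⊢
    have hm3 : m ≤ 3 := by
      by_contra h
      push_neg at h
      have h81 : 3 ^ 4 ∣ 108 := (pow_dvd_pow 3 h).trans h108
      norm_num at h81
    have hm3' : 3 ≤ m := by
      have h33 : 3 ^ 3 ∣ 3 ^ m := by
        norm_num
        exact h27
      exact (Nat.pow_dvd_pow_iff_le_right (by norm_num : 1 < 3)).mp h33
    have : m = 3 := le_antisymm hm3 hm3'
    rw [this]
    norm_num
  have hTNeq : T = N := Subgroup.eq_of_le_of_card_ge hTN (by rw [hcard, cfg.cardT])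
  have hgN' : (g : G) ∈ N := by
    rw [hN]
    refine Subgroup.mem_inf.mpr ⟨?_, g.2⟩
    rw [mem_normalizer_iff] at hgN ⊢
    intro t
    constructor
    · intro ht
      have h3 := (hgN ⟨t, hTP ht⟩).mp (by rw [mem_subgroupOf]; exact ht)
      rw [mem_subgroupOf] at h3
      simpa using h3
    · intro ht
      have htP : t ∈ (P : Subgroup G) := by
        have h1 : (g : G) * t * (g : G)⁻¹ ∈ (P : Subgroup G) := hTP ht
        have h4 := (P : Subgroup G).mul_mem
          ((P : Subgroup G).mul_mem ((P : Subgroup G).inv_mem g.2) h1) g.2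
        simpa [mul_assoc] using h4
      have h3 := (hgN ⟨t, htP⟩).mpr (by rw [mem_subgroupOf]; simpa using ht)
      rw [mem_subgroupOf] at h3
      exact h3
  apply hgT
  rw [mem_subgroupOf, hTNeq]
  exact hgN'

end Cfsg.Agent.H72.Tm

example : Cfsg.Agent.H64.Tm.StSyl.{u} := Cfsg.Agent.H72.Tm.syl
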