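import Mathlib
import Cfsg.Agent.H67.UmDefs
import Cfsg.Agent.H45.SingerU
import Cfsg.Agent.H62.RoB
import Cfsg.Agent.H72.UmAr3

/-!
# S2263 (team project UM, lead helper67) piece UM-PEEL: a self-dual polynomial splits off a
primary part
-/

set_option autoImplicit false

open Polynomial

universe u

namespace Cfsg.Agent.H72.Um

open Cfsg.Agent.H67.Um Cfsg.Agent.H45

section
variable {F : Type u} [Field F]

theorem dualPoly_pow' (σ : F →+* F) (f : F[X]) (n : ℕ) :
    dualPoly σ (f ^ n) = dualPoly σ f ^ n := by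
  induction n with
  | zero =>
    rw [pow_zero, pow_zero, ← C_1, dualPoly_C, map_one]
  | succ n ih => rw [pow_succ, pow_succ, dualPoly_mul, ih]

theorem dualPoly_dvd' (σ : F →+* F) {f g : F[X]} (h : f ∣ g) : dualPoly σ f ∣ dualPoly σ g := by
  obtain ⟨c, rfl⟩ := h
  rw [dualPoly_mul]
  exact dvd_mul_right _ _

theorem dualPoly_irreducible' {σ : F →+* F} (hσσ : ∀ a, σ (σ a) = a) (h : F[X])
    (hirr : Irreducible h) (h0 : h.coeff 0 ≠ 0) : Irreducible (dualPoly σ h) := by
  refine irreducible_iff.mpr ⟨?_, ?_⟩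
  · intro hu
    have h1 := natDegree_eq_zero_of_isUnit hu
    rw [dualPoly_natDegree σ h h0] at h1
    have := hirr.natDegree_pos
    omega
  · intro a b hab
    have hab0 : (dualPoly σ h).coeff 0 ≠ 0 := by
      rw [dualPoly_coeff_zero]
      exact (map_ne_zero σ).mpr (leadingCoeff_ne_zero.mpr hirr.ne_zero)
    have ha0 : a.coeff 0 ≠ 0 := by
      intro h1; apply hab0; rw [hab, mul_coeff_zero, h1, zero_mul]
    have hb0 : b.coeff 0 ≠ 0 := by
      intro h1; apply hab0; rw [hab, mul_coeff_zero, h1, mul_zero]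
    have h2 : h = dualPoly σ a * dualPoly σ b := by
      rw [← dualPoly_mul, ← hab, dualPoly_dualPoly hσσ h h0]
    rcases hirr.isUnit_or_isUnit h2 with hu | hu
    · left
      have h3 := natDegree_eq_zero_of_isUnit hu
      rw [dualPoly_natDegree σ a ha0] at h3
      rw [eq_C_of_natDegree_eq_zero h3]
      exact isUnit_C.mpr (IsUnit.mk0 _ ha0)
    · right
      have h3 := natDegree_eq_zero_of_isUnit hu
      rw [dualPoly_natDegree σ b hb0] at h3
      rw [eq_C_of_natDegree_eq_zero h3]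
      exact isUnit_C.mpr (IsUnit.mk0 _ hb0)

end

/-- UM-PEEL. -/
theorem peel : StPeel.{u} := by
  intro hSD hSC F _ _ q σ hF hσ P hPm hP0 hPsd hP1
  have hσσ : ∀ a, σ (σ a) = a := by
    intro a
    rw [hσ, hσ, ← pow_mul, ← sq, ← hF, FiniteField.pow_card]
  have hPnu : ¬ IsUnit P := fun hu => hP1 (hPm.eq_one_of_isUnit hu)
  have hPne : P ≠ 0 := hPm.ne_zero
  obtain ⟨h, hm, hirr, hdvd⟩ := Polynomial.exists_monic_irreducible_factor P hPnu
  have hfin : FiniteMultiplicity h P := FiniteMultiplicity.of_not_isUnit hirr.not_isUnit hPne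
  obtain ⟨R', hPR, hnd⟩ := hfin.exists_eq_pow_mul_and_not_dvd
  have hk1 : 1 ≤ multiplicity h P := Nat.one_le_iff_ne_zero.mpr (multiplicity_ne_zero.mpr hdvd)
  generalize multiplicity h P = k at hPR hk1
  have hh0 : h.coeff 0 ≠ 0 := by
    obtain ⟨c, hc⟩ := hdvd
    intro h0
    apply hP0
    rw [hc, mul_coeff_zero, h0, zero_mul]
  have hdeg : 1 ≤ h.natDegree := hirr.natDegree_pos
  have hR'm : R'.Monic := (hm.pow k).of_mul_monic_left (by rw [← hPR]; exact hPm)
  have hR'0 : R'.coeff 0 ≠ 0 := by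
    intro h0
    apply hP0
    rw [hPR, mul_coeff_zero, h0, mul_zero]
  by_cases hsd : h ∣ dualPoly σ h
  · -- self-dual case
    have hDh : Associated h (dualPoly σ h) :=
      associated_of_dvd_of_natDegree_le hsd (dualPoly_ne_zero σ h hh0)
        (by rw [dualPoly_natDegree σ h hh0])
    obtain ⟨hodd, hdv1⟩ := hSD F q σ hF hσ h hirr hm hh0 hsd
    have hQ : Qn q h.natDegree = q ^ h.natDegree + 1 := by
      unfold Qn
      rw [if_neg (Nat.not_even_iff_odd.mpr hodd)]
    obtain ⟨c, hc1, hc2⟩ := hSC F q hF h (Qn q h.natDegree / (q + 1)) hirr (by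
      rw [Nat.mul_div_cancel' (qp1_dvd_Qn q h.natDegree), hQ]; exact hdv1)
    refine ⟨h ^ k, R', h.natDegree, k, hdeg, hk1, hPR, ?_, ?_, hR'm, hR'0, ?_, ?_, c,
      pow_dvd_pow_of_dvd hc2 k⟩
    · exact ((Irreducible.coprime_iff_not_dvd hirr).mpr hnd).pow_left
    · rw [natDegree_pow, mul_comm]
    · have h1 : Associated (h ^ k * R') (dualPoly σ h ^ k * dualPoly σ R') := by
        have h2 : dualPoly σ P = dualPoly σ h ^ k * dualPoly σ R' := by
          rw [hPR, dualPoly_mul, dualPoly_pow']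
        rw [← h2, ← hPR]
        exact hPsd
      exact h1.of_mul_left hDh.pow_pow (pow_ne_zero k hirr.ne_zero)
    · rw [hQ]
      exact pow_dvd_pow_of_dvd hdv1 k
  · -- the other case
    have hu0 : σ (h.coeff 0) ≠ 0 := (map_ne_zero σ).mpr hh0
    have hDirr : Irreducible (dualPoly σ h) := dualPoly_irreducible' hσσ h hirr hh0
    have hCu : IsUnit (C (σ (h.coeff 0))⁻¹ : F[X]) := isUnit_C.mpr (IsUnit.mk0 _ (inv_ne_zero hu0))
    obtain ⟨h', hh'⟩ : ∃ h' : F[X], h' = C (σ (h.coeff 0))⁻¹ * dualPoly σ h := ⟨_, rfl⟩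
    have hassoc' : Associated (dualPoly σ h) h' := by
      rw [hh', mul_comm]
      exact associated_mul_unit_right _ _ hCu
    have hirr' : Irreducible h' := hassoc'.irreducible hDirr
    have hm' : h'.Monic := by
      rw [Monic.def, hh', leadingCoeff_mul, leadingCoeff_C, dualPoly_leadingCoeff σ h hh0,
        inv_mul_cancel₀ hu0]
    have hdeg' : h'.natDegree = h.natDegree := by
      rw [hh', natDegree_C_mul (inv_ne_zero hu0), dualPoly_natDegree σ h hh0]
    have hh'0 : h'.coeff 0 ≠ 0 := by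
      rw [hh', mul_coeff_zero, coeff_C_zero, dualPoly_coeff_zero, hm.leadingCoeff, map_one,
        mul_one]
      exact inv_ne_zero hu0
    have hcop : IsCoprime h h' :=
      (Irreducible.coprime_iff_not_dvd hirr).mpr (fun hd => hsd (hd.trans hassoc'.symm.dvd))
    have hDh' : Associated (dualPoly σ h') h := by
      rw [hh', dualPoly_mul, dualPoly_C, dualPoly_dualPoly hσσ h hh0, mul_comm]
      exact (associated_mul_unit_right _ _
        (isUnit_C.mpr (IsUnit.mk0 _ ((map_ne_zero σ).mpr (inv_ne_zero hu0))))).symm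
    have h1 : h' ^ k ∣ P := by
      have h2 : dualPoly σ h ^ k ∣ dualPoly σ P := by
        rw [hPR, dualPoly_mul, dualPoly_pow']
        exact dvd_mul_right _ _
      exact (pow_dvd_pow_of_dvd hassoc'.symm.dvd k).trans (h2.trans hPsd.symm.dvd)
    have h2 : h' ^ k ∣ R' := by
      have hc : IsCoprime (h' ^ k) (h ^ k) := hcop.symm.pow
      rw [hPR] at h1
      exact hc.dvd_of_dvd_mul_left h1
    obtain ⟨R'', hR''⟩ := h2
    have hnd1 : ¬ h ∣ R'' := fun hd => hnd (by rw [hR'']; exact hd.mul_left _)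
    have hnd2 : ¬ h' ∣ R'' := by
      intro hd
      have h3 : h' ^ (k + 1) ∣ P := by
        obtain ⟨w, hw⟩ := hd
        exact ⟨h ^ k * w, by rw [hPR, hR'', hw]; ring⟩
      have h4 : dualPoly σ h' ^ (k + 1) ∣ dualPoly σ P := by
        rw [← dualPoly_pow']
        exact dualPoly_dvd' σ h3
      have h5 : h ^ (k + 1) ∣ P :=
        (pow_dvd_pow_of_dvd hDh'.symm.dvd (k + 1)).trans (h4.trans hPsd.symm.dvd)
      rw [hPR, pow_succ] at h5
      exact hnd ((mul_dvd_mul_iff_left (pow_ne_zero k hirr.ne_zero)).mp h5)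
    have hPG : P = (h * h') ^ k * R'' := by rw [hPR, hR'', mul_pow, mul_assoc]
    have hGm : ((h * h') ^ k).Monic := (hm.mul hm').pow k
    have hR''m : R''.Monic := hGm.of_mul_monic_left (by rw [← hPG]; exact hPm)
    have hR''0 : R''.coeff 0 ≠ 0 := by
      intro h0
      apply hP0
      rw [hPG, mul_coeff_zero, h0, mul_zero]
    have hQ : Qn q (2 * h.natDegree) = q ^ (2 * h.natDegree) - 1 := by
      unfold Qn
      rw [if_pos (even_two_mul _)]
    have hcard : Fintype.card F ^ h.natDegree - 1 = q ^ (2 * h.natDegree) - 1 := by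
      rw [hF, ← pow_mul]
    have hd1 : h ∣ X ^ (q ^ (2 * h.natDegree) - 1) - 1 := by
      have := Cfsg.Agent.H62.irr_dvd_X_pow_sub_one h hirr hh0
      rwa [hcard] at this
    have hd2 : h' ∣ X ^ (q ^ (2 * h.natDegree) - 1) - 1 := by
      have := Cfsg.Agent.H62.irr_dvd_X_pow_sub_one h' hirr' hh'0
      rwa [hdeg', hcard] at this
    obtain ⟨c, hc1, hc2⟩ := hSC F q hF h (Qn q (2 * h.natDegree) / (q + 1)) hirr (by
      rw [Nat.mul_div_cancel' (qp1_dvd_Qn q (2 * h.natDegree)), hQ]; exact hd1)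
    have hc3 : h' ∣ X ^ (Qn q (2 * h.natDegree) / (q + 1)) - C c := by
      have h5 : dualPoly σ h ∣ dualPoly σ (X ^ (Qn q (2 * h.natDegree) / (q + 1)) - C c) :=
        dualPoly_dvd' σ hc2
      rw [dualPoly_X_pow_sub_C] at h5
      have hσc : σ c * c = 1 := by rw [hσ, ← pow_succ]; exact hc1
      have hσc0 : σ c ≠ 0 := by
        intro h0
        rw [h0, zero_mul] at hσc
        exact zero_ne_one hσc
      have h6 : (1 : F[X]) - C (σ c) * X ^ (Qn q (2 * h.natDegree) / (q + 1))
          = - C (σ c) * (X ^ (Qn q (2 * h.natDegree) / (q + 1)) - C c) := by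
        rw [mul_sub, neg_mul, neg_mul, ← C_mul, hσc, C_1]
        ring
      rw [h6] at h5
      have hunit : IsUnit (- C (σ c) : F[X]) := (isUnit_C.mpr (IsUnit.mk0 _ hσc0)).neg
      exact hassoc'.symm.dvd.trans (hunit.dvd_mul_left.mp h5)
    refine ⟨(h * h') ^ k, R'', 2 * h.natDegree, k, by omega, hk1, hPG, ?_, ?_, hR''m, hR''0,
      ?_, ?_, c, pow_dvd_pow_of_dvd (hcop.mul_dvd hc2 hc3) k⟩
    · exact (((Irreducible.coprime_iff_not_dvd hirr).mpr hnd1).mul_left
        ((Irreducible.coprime_iff_not_dvd hirr').mpr hnd2)).pow_left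
    · rw [natDegree_pow, natDegree_mul hirr.ne_zero hirr'.ne_zero, hdeg']
      ring
    · have h7 : Associated (h * h') (dualPoly σ h * dualPoly σ h') := by
        rw [mul_comm (dualPoly σ h)]
        exact hDh'.symm.mul_mul hassoc'.symm
      have h8 : Associated ((h * h') ^ k * R'')
          ((dualPoly σ h * dualPoly σ h') ^ k * dualPoly σ R'') := by
        have h9 : dualPoly σ P = (dualPoly σ h * dualPoly σ h') ^ k * dualPoly σ R'' := by
          rw [hPG, dualPoly_mul, dualPoly_pow', dualPoly_mul]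
        rw [← h9, ← hPG]
        exact hPsd
      exact h8.of_mul_left h7.pow_pow
        (pow_ne_zero k (mul_ne_zero hirr.ne_zero hirr'.ne_zero))
    · rw [hQ]
      exact pow_dvd_pow_of_dvd (hcop.mul_dvd hd1 hd2) k

end Cfsg.Agent.H72.Um

example : Cfsg.Agent.H67.Um.StPeel.{u} := Cfsg.Agent.H72.Um.peel
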