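import Cfsg.Agent.H72.ZasDefs
import Cfsg.Prelude.Def_Solvable

/-!
# Non-solvable Frobenius complements (S3359): exact statements of the pieces (helper72)

Continuation of the S0690 project: `ZasAx`, `StMain`, … are in `Cfsg.Agent.H72.ZasDefs`.
-/

set_option autoImplicit false

namespace Cfsg.Agent.H72.Zas

universe u v

/-- FK: a Frobenius complement acts faithfully and fixed-point-freely on a finite group
(its Frobenius kernel). -/
def StFk : Prop :=
  ∀ (L : Type u) [Group L] [Finite L] (H : Subgroup L), Cfsg.IsFrobeniusComplement H →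
    ∃ (K : Type u) (_ : Group K) (_ : Finite K) (Γ : Subgroup (MulAut K)),
      (∀ φ ∈ Γ, φ ≠ 1 → ∀ k : K, φ k = k → k = 1) ∧ Nonempty (H ≃* Γ)

/-- TR: `ZasAx` is inherited along injective homomorphisms (subgroups, isomorphic copies). -/
def StTr : Prop :=
  ∀ (G : Type u) (G' : Type v) [Group G] [Group G'] (f : G →* G'), Function.Injective f →
    ZasAx G' → ZasAx G

/-- PC: a finite non-solvable group has a nontrivial perfect normal subgroup. -/
def StPc : Prop :=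
  ∀ (G : Type u) [Group G] [Finite G], ¬ Group.IsSolvable G →
    ∃ D : Subgroup G, D.Normal ∧ commutator D = ⊤ ∧ D ≠ ⊥

/-- CM: the centralizer of a perfect normal subgroup `D` of order 120 is `⟨z⟩ × M`, `M` of odd
order. -/
def StCm : Prop :=
  ∀ (G : Type u) [Group G] [Finite G], ZasAx G → ∀ D : Subgroup G, D.Normal →
    commutator D = ⊤ → Nat.card D = 120 →
    ∃ M : Subgroup G, M.Normal ∧ Odd (Nat.card M) ∧ (∀ m ∈ M, ∀ d ∈ D, m * d = d * m) ∧
      ∀ c : G, (∀ d ∈ D, c * d = d * c) → c ∈ D ⊔ M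

/-- OD1: 3-elements and 5-elements lie in `D`. -/
def StOd1 : Prop :=
  ∀ (G : Type u) [Group G] [Finite G], ZasAx G → ∀ D : Subgroup G, D.Normal →
    commutator D = ⊤ → Nat.card D = 120 →
    ∀ (p : ℕ) (g : G), p = 3 ∨ p = 5 → (∃ k : ℕ, orderOf g = p ^ k) → g ∈ D

/-- OD2: `p`-elements for primes `p ≥ 7` centralize `D`. -/
def StOd2 : Prop :=
  ∀ (G : Type u) [Group G] [Finite G], ZasAx G → ∀ D : Subgroup G, D.Normal →
    commutator D = ⊤ → Nat.card D = 120 →
    ∀ (p : ℕ) (g : G), p.Prime → 7 ≤ p → (∃ k : ℕ, orderOf g = p ^ k) →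
    ∀ d ∈ D, g * d = d * g

/-- OD: elements of odd order lie in `D · C_G(D)`. -/
def StOd : Prop :=
  ∀ (G : Type u) [Group G] [Finite G], ZasAx G → ∀ D : Subgroup G, D.Normal →
    commutator D = ⊤ → Nat.card D = 120 →
    ∀ g : G, Odd (orderOf g) → ∃ d ∈ D, ∃ c : G, (∀ x ∈ D, c * x = x * c) ∧ g = d * c

/-- IX: `D · M` has index at most 2. -/
def StIx : Prop :=
  ∀ (G : Type u) [Group G] [Finite G], ZasAx G → ∀ D : Subgroup G, D.Normal →
    commutator D = ⊤ → Nat.card D = 120 →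
    ∀ M : Subgroup G, M.Normal → Odd (Nat.card M) →
    (∀ g : G, Odd (orderOf g) → g ∈ D ⊔ M) → (D ⊔ M).index = 1 ∨ (D ⊔ M).index = 2

/-- FS: the structure theorem in terms of `ZasAx`. -/
def StFs : Prop :=
  ∀ (G : Type u) [Group G] [Finite G], ZasAx G → ¬ Group.IsSolvable G →
    ∃ G₀ : Subgroup G, G₀.Normal ∧ (G₀.index = 1 ∨ G₀.index = 2) ∧
      ∃ S M : Subgroup G, S ⊔ M = G₀ ∧ S ⊓ M = ⊥ ∧ (∀ s ∈ S, ∀ x ∈ M, s * x = x * s) ∧
        Nonempty (S ≃* Matrix.SpecialLinearGroup (Fin 2) (ZMod 5)) ∧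
        (∀ (p : ℕ) [Fact p.Prime] (P : Sylow p M), IsCyclic P) ∧ (Nat.card M).Coprime 30

end Cfsg.Agent.H72.Zas
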