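import Cfsg.Agent.H72.ZasDefs
import Cfsg.Agent.S3378

/-!
# Zassenhaus (S0690): the group-theoretic main assembly (helper72)
-/

set_option autoImplicit false

namespace Cfsg.Agent.H72.Zas

universe u

section QP

variable {G : Type u} [Group G]

theorem orderOf_conj' (g h : G) : orderOf (g * h * g⁻¹) = orderOf h := by
  have := (MulAut.conj g).orderOf_eq h
  rwa [MulAut.conj_apply] at this

theorem ne_one_of_orderOf {g : G} {n : ℕ} (hn : 1 < n) (h : orderOf g = n) : g ≠ 1 := by
  intro h1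
  rw [h1, orderOf_one] at h
  omega

theorem pow_four_of_orderOf {g : G} (h : orderOf g = 4) : g ^ 4 = 1 := by
  rw [← h]; exact pow_orderOf_eq_one g

theorem mul4_of_orderOf {g : G} (h : orderOf g = 4) : g * g * g * g = 1 := by
  have h4 := pow_four_of_orderOf h
  calc g * g * g * g = g ^ 4 := by simp [pow_succ]
    _ = 1 := h4

theorem inv_eq_cube {g : G} (h : orderOf g = 4) : g⁻¹ = g * g * g :=
  inv_eq_of_mul_eq_one_left (mul4_of_orderOf h)

theorem orderOf_inv_four {g : G} (h : orderOf g = 4) : orderOf g⁻¹ = 4 := by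
  rw [orderOf_inv]; exact h

theorem sq_ne_one_of_four {g : G} (h : orderOf g = 4) : g * g ≠ 1 :=
  ne_one_of_orderOf (by norm_num) (FpfRing.sq_four h)

theorem qp_sq (hZ : ZasAx G) {t s : G} (ht : orderOf t = 4) (hs : orderOf s = 4) :
    t * t = s * s :=
  hZ.invol _ _ (FpfRing.sq_four ht) (FpfRing.sq_four hs)

theorem sq_central (hZ : ZasAx G) {t : G} (ht : orderOf t = 4) (g : G) :
    g * (t * t) = (t * t) * g := by
  have h1 : orderOf (g * (t * t) * g⁻¹) = 2 := by
    rw [orderOf_conj']; exact FpfRing.sq_four ht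
  have h2 := hZ.invol _ _ h1 (FpfRing.sq_four ht)
  calc g * (t * t) = (g * (t * t) * g⁻¹) * g := by group
    _ = (t * t) * g := by rw [h2]

/-- `y³` centralizes `t` and `s` in a cyclically permuted quaternion pair. -/
theorem cube_comm (hZ : ZasAx G) {t s y : G} (ht : orderOf t = 4) (hs : orderOf s = 4)
    (hinv : s * t * s⁻¹ = t⁻¹) (hyt : y * t * y⁻¹ = s) (hys : y * s * y⁻¹ = t * s) :
    (y ^ 3) * t = t * (y ^ 3) ∧ (y ^ 3) * s = s * (y ^ 3) := by
  have hz := qp_sq hZ ht hs
  have hzc := sq_central hZ ht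
  -- s * t * s = t
  have h1 : s * t * s = t := by
    have : s * t = t⁻¹ * s := by
      calc s * t = (s * t * s⁻¹) * s := by group
        _ = t⁻¹ * s := by rw [hinv]
    calc s * t * s = t⁻¹ * s * s := by rw [this]
      _ = t⁻¹ * (s * s) := by group
      _ = t⁻¹ * (t * t) := by rw [hz]
      _ = t := by group
  have hyts : y * (t * s) * y⁻¹ = t := by
    calc y * (t * s) * y⁻¹ = (y * t * y⁻¹) * (y * s * y⁻¹) := by group
      _ = s * (t * s) := by rw [hyt, hys]
      _ = s * t * s := by group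
      _ = t := h1
  have hy3 : y ^ 3 = y * y * y := by simp [pow_succ]
  have e1 : y ^ 3 * t * (y ^ 3)⁻¹ = t := by
    calc y ^ 3 * t * (y ^ 3)⁻¹ = y * (y * (y * t * y⁻¹) * y⁻¹) * y⁻¹ := by rw [hy3]; group
      _ = y * (y * s * y⁻¹) * y⁻¹ := by rw [hyt]
      _ = y * (t * s) * y⁻¹ := by rw [hys]
      _ = t := hyts
  have e2 : y ^ 3 * s * (y ^ 3)⁻¹ = s := by
    calc y ^ 3 * s * (y ^ 3)⁻¹ = y * (y * (y * s * y⁻¹) * y⁻¹) * y⁻¹ := by rw [hy3]; group
      _ = y * (y * (t * s) * y⁻¹) * y⁻¹ := by rw [hys]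
      _ = y * t * y⁻¹ := by rw [hyts]
      _ = s := hyt
  constructor
  · calc y ^ 3 * t = (y ^ 3 * t * (y ^ 3)⁻¹) * y ^ 3 := by group
      _ = t * y ^ 3 := by rw [e1]
  · calc y ^ 3 * s = (y ^ 3 * s * (y ^ 3)⁻¹) * y ^ 3 := by group
      _ = s * y ^ 3 := by rw [e2]

/-- a 3-element cyclically permuting a quaternion pair: either it has order 3, or a power of it
has order 3 and centralizes the pair. -/
theorem three_alt (hZ : ZasAx G) {t s y : G} (ht : orderOf t = 4) (hs : orderOf s = 4)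
    (hinv : s * t * s⁻¹ = t⁻¹) (hyt : y * t * y⁻¹ = s) (hys : y * s * y⁻¹ = t * s)
    {j : ℕ} (hj : orderOf y = 3 ^ j) :
    orderOf y = 3 ∨ ∃ w : G, orderOf w = 3 ∧ w * t = t * w ∧ w * s = s * w := by
  obtain ⟨c1, c2⟩ := cube_comm hZ ht hs hinv hyt hys
  rcases j with _ | _ | j
  · -- y = 1
    exfalso
    have hy1 : y = 1 := by
      rw [← orderOf_eq_one_iff, hj, pow_zero]
    rw [hy1] at hyt
    have hts : t = s := by simpa using hyt
    rw [← hts] at hinv
    have : t * t = 1 := by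
      have h2 : t = t⁻¹ := by simpa using hinv
      calc t * t = t * t⁻¹ := by rw [← h2]
        _ = 1 := by group
    exact sq_ne_one_of_four ht this
  · left; simpa using hj
  · right
    refine ⟨y ^ (3 ^ (j + 1)), ?_, ?_, ?_⟩
    · have h := orderOf_pow' y (n := 3 ^ (j + 1)) (by positivity)
      rw [h, hj]
      have : Nat.gcd (3 ^ (j + 1 + 1)) (3 ^ (j + 1)) = 3 ^ (j + 1) :=
        Nat.gcd_eq_right (pow_dvd_pow 3 (by omega))
      rw [this, pow_succ 3 (j + 1)]
      exact Nat.mul_div_cancel_left 3 (by positivity)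
    · have : y ^ (3 ^ (j + 1)) = (y ^ 3) ^ (3 ^ j) := by
        rw [← pow_mul, pow_succ, mul_comm]
      rw [this]
      exact (Commute.pow_left (show Commute (y ^ 3) t from c1) _).eq
    · have : y ^ (3 ^ (j + 1)) = (y ^ 3) ^ (3 ^ j) := by
        rw [← pow_mul, pow_succ, mul_comm]
      rw [this]
      exact (Commute.pow_left (show Commute (y ^ 3) s from c2) _).eq

/-- conjugation by `s⁻¹` equals conjugation by `s` when `s` has order 4. -/
theorem conj_inv_eq (hZ : ZasAx G) {s : G} (hs : orderOf s = 4) (g : G) :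
    s⁻¹ * g * s = s * g * s⁻¹ := by
  have hzc := sq_central hZ hs g
  calc s⁻¹ * g * s = s⁻¹ * (g * (s * s)) * s⁻¹ := by group
    _ = s⁻¹ * ((s * s) * g) * s⁻¹ := by rw [hzc]
    _ = s * g * s⁻¹ := by group

theorem inv_variants (hZ : ZasAx G) {t s : G} (hs : orderOf s = 4)
    (hinv : s * t * s⁻¹ = t⁻¹) {t' s' : G} (ht' : t' = t ∨ t' = t⁻¹) (hs' : s' = s ∨ s' = s⁻¹) :
    s' * t' * s'⁻¹ = t'⁻¹ := by
  have h2 : s * t⁻¹ * s⁻¹ = t := by
    calc s * t⁻¹ * s⁻¹ = (s * t * s⁻¹)⁻¹ := by group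
      _ = t := by rw [hinv, inv_inv]
  rcases ht' with rfl | rfl <;> rcases hs' with rfl | rfl
  · exact hinv
  · rw [inv_inv, conj_inv_eq hZ hs]; exact hinv
  · rw [inv_inv]; exact h2
  · rw [inv_inv, inv_inv, conj_inv_eq hZ hs]; exact h2

end QP

section Main

variable {G : Type u} [Group G] [Finite G]

theorem act_of (hActA : StActA.{u}) (hActB : StActB.{u}) (hAct3 : StAct3.{u}) (hZ : ZasAx G)
    (S : Sylow 2 G) (n : ℕ) (hn : 1 ≤ n) (e : S ≃* QuaternionGroup (2 ^ n)) (hc4 : Conj4 G) :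
    Act G := by
  intro t s ht hs hinv
  have hz := qp_sq hZ ht hs
  have hy : ∃ y, Cyc3 t s y := by
    rcases Nat.lt_or_ge n 2 with h | h
    · have h1 : n = 1 := by omega
      subst h1
      exact hActA G S ⟨e⟩ hc4 t s ht hs hinv hz
    · exact hActB G S n h ⟨e⟩ hc4 t s ht hs hinv hz
  obtain ⟨y, hy⟩ := hy
  exact hAct3 G t s y ht hs hinv hz hy

theorem lu_of (hLu : StLu.{u}) (hSyl : StSyl.{u}) (hZ : ZasAx G) (t : G) (ht : orderOf t = 4)
    (x y : G) (hx : orderOf x = 3) (hy : orderOf y = 3) (hxt : x * t = t * x)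
    (hyt : y * t = t * y) : y ∈ Subgroup.zpowers x :=
  hLu G hZ.pq (Subgroup.centralizer {t}) ((hSyl G hZ).2.1 t ht) 3 Nat.prime_three x y
    (Subgroup.mem_centralizer_singleton_iff.mpr hxt)
    (Subgroup.mem_centralizer_singleton_iff.mpr hyt) hx hy

omit [Finite G] in
/-- an element commuting with the two standard generators of a quaternion Sylow subgroup commutes
with the whole subgroup. -/
theorem comm_of_gens {N : ℕ} [NeZero N] (S : Subgroup G) (e : S ≃* QuaternionGroup N) (w : G)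
    (h1 : w * ((e.symm (QuaternionGroup.a 1) : S) : G) = ((e.symm (QuaternionGroup.a 1) : S) : G) * w)
    (h2 : w * ((e.symm (QuaternionGroup.xa 0) : S) : G) = ((e.symm (QuaternionGroup.xa 0) : S) : G) * w) :
    ∀ g ∈ S, g * w = w * g := by
  intro g hg
  have key : ∀ q : QuaternionGroup N, ((e.symm q : S) : G) * w = w * ((e.symm q : S) : G) := by
    have ha : ∀ i : ZMod (2 * N),
        ((e.symm (QuaternionGroup.a i) : S) : G) * w = w * ((e.symm (QuaternionGroup.a i) : S) : G) := by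
      intro i
      have hi : (QuaternionGroup.a i : QuaternionGroup N) = QuaternionGroup.a 1 ^ i.val := by
        rw [QuaternionGroup.a_one_pow, ZMod.natCast_zmod_val]
      rw [hi, map_pow, Subgroup.coe_pow]
      exact ((Commute.pow_right (show Commute w _ from h1) _).eq).symm
    intro q
    rcases q with i | i
    · exact ha i
    · have hi : (QuaternionGroup.xa i : QuaternionGroup N) = QuaternionGroup.xa 0 * QuaternionGroup.a i := by
        rw [QuaternionGroup.xa_mul_a, zero_add]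
      rw [hi, map_mul, Subgroup.coe_mul]
      calc ((e.symm (QuaternionGroup.xa 0) : S) : G) * ((e.symm (QuaternionGroup.a i) : S) : G) * w
          = ((e.symm (QuaternionGroup.xa 0) : S) : G) * (((e.symm (QuaternionGroup.a i) : S) : G) * w) := by group
        _ = ((e.symm (QuaternionGroup.xa 0) : S) : G) * (w * ((e.symm (QuaternionGroup.a i) : S) : G)) := by rw [ha i]
        _ = (((e.symm (QuaternionGroup.xa 0) : S) : G) * w) * ((e.symm (QuaternionGroup.a i) : S) : G) := by group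
        _ = (w * ((e.symm (QuaternionGroup.xa 0) : S) : G)) * ((e.symm (QuaternionGroup.a i) : S) : G) := by rw [h2]
        _ = w * (((e.symm (QuaternionGroup.xa 0) : S) : G) * ((e.symm (QuaternionGroup.a i) : S) : G)) := by group
  have := key (e ⟨g, hg⟩)
  simpa using this

omit [Finite G] in
theorem comm_inv_iff {w t : G} : w * t⁻¹ = t⁻¹ * w ↔ w * t = t * w := by
  constructor
  · intro h
    calc w * t = t * (t⁻¹ * w) * t := by group
      _ = t * (w * t⁻¹) * t := by rw [h]
      _ = t * w := by group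
  · intro h
    calc w * t⁻¹ = t⁻¹ * (t * w) * t⁻¹ := by group
      _ = t⁻¹ * (w * t) * t⁻¹ := by rw [h]
      _ = t⁻¹ * w := by group

theorem caseA (hCa1 : StCa1.{u}) (hPn : StPn.{u}) (hA5 : StA5.{u}) (hZ : ZasAx G)
    (hperf : commutator G = ⊤) (S : Sylow 2 G) (e : S ≃* QuaternionGroup 2) (hc4 : Conj4 G)
    (hAct : Act G) (hg2 : ∀ w : G, orderOf w = 3 → (∀ g ∈ S, g * w = w * g) → False) :
    Nat.card G = 120 := by
  classical
  have ot₀ : orderOf ((e.symm (QuaternionGroup.a 1) : S) : G) = 4 := by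
    rw [Subgroup.orderOf_coe, e.symm.orderOf_eq, QuaternionGroup.orderOf_a_one]
  have os₀ : orderOf ((e.symm (QuaternionGroup.xa 0) : S) : G) = 4 := by
    rw [Subgroup.orderOf_coe, e.symm.orderOf_eq, QuaternionGroup.orderOf_xa]
  have hinv₀ : ((e.symm (QuaternionGroup.xa 0) : S) : G) * ((e.symm (QuaternionGroup.a 1) : S) : G)
      * ((e.symm (QuaternionGroup.xa 0) : S) : G)⁻¹ = ((e.symm (QuaternionGroup.a 1) : S) : G)⁻¹ := by
    have h1 : (QuaternionGroup.xa 0 : QuaternionGroup 2) * QuaternionGroup.a 1 *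
        (QuaternionGroup.xa 0)⁻¹ = (QuaternionGroup.a 1)⁻¹ := by decide
    have h2 := congrArg (fun q => ((e.symm q : S) : G)) h1
    simp only [map_mul, map_inv, Subgroup.coe_mul, Subgroup.coe_inv] at h2
    exact h2
  obtain ⟨y, t, s, htt, hss, hyt, hys, j, hj⟩ := hAct _ _ ot₀ os₀ hinv₀
  have ot : orderOf t = 4 := by
    rcases htt with rfl | rfl
    · exact ot₀
    · exact orderOf_inv_four ot₀
  have os : orderOf s = 4 := by
    rcases hss with rfl | rfl
    · exact os₀
    · exact orderOf_inv_four os₀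
  have hinv : s * t * s⁻¹ = t⁻¹ := inv_variants hZ os₀ hinv₀ htt hss
  have oy : orderOf y = 3 := by
    rcases three_alt hZ ot os hinv hyt hys hj with h | ⟨w, hw, hwt, hws⟩
    · exact h
    · exfalso
      refine hg2 w hw (comm_of_gens (S : Subgroup G) e w ?_ ?_)
      · rcases htt with rfl | rfl
        · exact hwt
        · exact comm_inv_iff.mp hwt
      · rcases hss with rfl | rfl
        · exact hws
        · exact comm_inv_iff.mp hws
  have hF : Frame t s y := ⟨ot, os, hinv, oy, hyt, hys⟩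
  exact hA5 G hZ hperf (hPn G hZ hperf S ⟨e⟩ hc4) t s ot os hinv (hCa1 G hZ S ⟨e⟩ t s y hF)

theorem main_of (hSyl : StSyl.{u}) (hConj : StConj4.{u}) (hActA : StActA.{u})
    (hActB : StActB.{u}) (hAct3 : StAct3.{u}) (hG2 : StG2.{u}) (hLu : StLu.{u})
    (hCa1 : StCa1.{u}) (hPn : StPn.{u}) (hA5 : StA5.{u}) (hCb : StCb.{u}) : StMain.{u} := by
  intro G _ _ hZ hperf hnt
  classical
  obtain ⟨n, hn, ⟨e⟩⟩ := (hSyl G hZ).2.2 hperf hnt (default : Sylow 2 G)
  have hc4 : Conj4 G := hConj G hperf default n hn ⟨e⟩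
  have hAct : Act G := act_of hActA hActB hAct3 hZ default n hn e hc4
  have hcyc3 : ∀ P : Sylow 3 G, IsCyclic P := by
    intro P
    have : Fact (Nat.Prime 3) := ⟨Nat.prime_three⟩
    rcases (hSyl G hZ).1 3 (P : Subgroup G) P.2 with h | ⟨h, -⟩
    · exact h
    · omega
  have hg2 := hG2 G hperf hcyc3 (default : Sylow 2 G)
  rcases Nat.lt_or_ge n 2 with h | h
  · have h1 : n = 1 := by omega
    subst h1
    have hcard := caseA hCa1 hPn hA5 hZ hperf default e hc4 hAct hg2
    refine (Cfsg.Agent.S3378.result).1 G hcard ?_ ?_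
    · intro hsol
      have := Group.IsSolvable.commutator_lt_top_of_nontrivial G
      rw [hperf] at this
      exact lt_irrefl _ this
    · intro P
      obtain ⟨m, hm, ⟨f⟩⟩ := (hSyl G hZ).2.2 hperf hnt P
      have c1 : Nat.card P = 4 * 2 ^ m := by
        rw [Nat.card_congr f.toEquiv, Nat.card_eq_fintype_card, QuaternionGroup.card]
      have c2 : Nat.card (default : Sylow 2 G) = 4 * 2 ^ 1 := by
        rw [Nat.card_congr e.toEquiv, Nat.card_eq_fintype_card, QuaternionGroup.card]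
      have c3 : Nat.card P = Nat.card (default : Sylow 2 G) := by
        rw [Sylow.card_eq_multiplicity, Sylow.card_eq_multiplicity]
      have hm1 : m = 1 := by
        rw [c1, c2] at c3
        have : 2 ^ m = 2 ^ 1 := by omega
        exact Nat.pow_right_injective (le_refl 2) this
      subst hm1
      exact ⟨f⟩
  · exact (hCb G hZ default n h ⟨e⟩ hAct hg2
      (fun t ht x y hx hy hxt hyt => lu_of hLu hSyl hZ t ht x y hx hy hxt hyt)).elim

end Main

section Final

/-- the ring side gives the group-theoretic axioms. -/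
theorem zasAx_of_ring (hRb : StRb.{u}) (hU2 : StU2.{u}) (hRcb : StRcb.{u}) {G : Type u} [Group G]
    [Finite G] {E : Type u} [Ring E] [Finite E] (R : FpfRing G E) : ZasAx G := by
  obtain ⟨-, -, hab, hpq⟩ := hRb G E R
  refine ⟨hab, hpq, ?_, ?_, ?_⟩
  · intro x y hx hy
    apply R.inj
    rw [R.map_invol hx, R.map_invol hy]
  · exact hU2 G E R
  · exact hRcb G E R

/-- Zassenhaus' theorem from the pieces. -/
theorem final_of (hBr1 : StBr1.{u}) (hBr2 : StBr2.{u}) (hRb : StRb.{u}) (hU2 : StU2.{u})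
    (hRcb : StRcb.{u}) (hMain : StMain.{u}) {K : Type u} [Group K] [Finite K]
    (G : Subgroup (MulAut K)) (hfpf : ∀ φ ∈ G, φ ≠ 1 → ∀ k : K, φ k = k → k = 1)
    (hperf : commutator G = ⊤) (hne : G ≠ ⊥) :
    Nonempty (G ≃* Matrix.SpecialLinearGroup (Fin 2) (ZMod 5)) := by
  have hab := hBr1 K G hfpf hperf hne
  obtain ⟨E, _, _, ⟨R⟩⟩ := hBr2 K G hfpf hab
  have hZ : ZasAx G := zasAx_of_ring hRb hU2 hRcb R
  have hnt : Nontrivial G := (Subgroup.nontrivial_iff_ne_bot G).mpr hne
  exact hMain G hZ hperf hnt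

end Final

end Cfsg.Agent.H72.Zas
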